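import Mathlib
import Cfsg.Agent.Lib.H26.ExtraRep2
import Cfsg.Agent.Lib.H26.HHCore
import Cfsg.Agent.Lib.H19.ZCoprime
import Cfsg.Agent.Lib.H01.Coprime

/-! An odd prime order automorphism acting on a `q`-group of automorphisms of an elementary abelian
`ℓ`-group with no fixed points centralizes the `q`-group. -/

set_option autoImplicit false
set_option linter.style.haveILetI false
set_option linter.unusedVariables false
set_option linter.unusedSectionVars false
set_option linter.unusedSimpArgs false

namespace Cfsg.Agent.H26.CoprimeZ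

open scoped commutatorElement

section gen

variable {Γ : Type*} [Group Γ]

theorem mem_zpowers_of_pow {a : Γ} {r : ℕ} (hr : r.Prime) (har : a ^ r = 1) {s : Γ}
    (hs : s ∈ Subgroup.zpowers a) (hs1 : s ≠ 1) : a ∈ Subgroup.zpowers s := by
  obtain ⟨k, rfl⟩ := Subgroup.mem_zpowers_iff.mp hs
  have hnd : ¬ ((r : ℤ) ∣ k) := by
    rintro ⟨m, rfl⟩
    apply hs1
    rw [zpow_mul, zpow_natCast, har, one_zpow]
  have hcop : IsCoprime (k : ℤ) (r : ℤ) := by
    have := (Nat.prime_iff_prime_int.mp hr).coprime_iff_not_dvd.mpr hnd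
    exact this.symm
  obtain ⟨u, v, huv⟩ := hcop
  refine Subgroup.mem_zpowers_iff.mpr ⟨u, ?_⟩
  have h1 : a ^ (u * k + v * r) = a := by rw [huv, zpow_one]
  rw [zpow_add] at h1
  have h2 : a ^ (v * (r : ℤ)) = 1 := by
    rw [mul_comm, zpow_mul, zpow_natCast, har, one_zpow]
  rw [h2, mul_one] at h1
  rw [← zpow_mul, mul_comm k u]
  exact h1

end gen

variable {A : Type*} [CommGroup A] [Finite A]

instance finite_mulAut : Finite (MulAut A) :=
  Finite.of_injective (fun f : MulAut A => (f : A → A)) (fun f g h => MulEquiv.ext (congrFun h))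

theorem lemmaZ {ℓ q r : ℕ} [hℓ : Fact ℓ.Prime] [hq : Fact q.Prime] [hr : Fact r.Prime]
    (hA : ∀ a : A, a ^ ℓ = 1) (hq2 : q ≠ 2) (hr2 : r ≠ 2) (hqℓ : q ≠ ℓ) (hrℓ : r ≠ ℓ) (hrq : r ≠ q)
    (a : MulAut A) (har : a ^ r = 1) (hfix : ∀ v, a v = v → v = 1) :
    ∀ (n : ℕ) (Y : Subgroup (MulAut A)), Nat.card Y = n → IsPGroup q Y →
      a ∈ Subgroup.normalizer (Y : Set (MulAut A)) → ∀ y ∈ Y, a * y * a⁻¹ = y := by
  classical
  intro n
  induction n using Nat.strong_induction_on with
  | _ n ih =>
  intro Y hn hYq haY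
  by_contra hcon
  push Not at hcon
  obtain ⟨y₀, hy₀, hy₀a⟩ := hcon
  let C : Subgroup (MulAut A) := Subgroup.zpowers a
  have hCY : C ≤ Subgroup.normalizer (Y : Set (MulAut A)) := by
    rw [Subgroup.zpowers_le]; exact haY
  obtain ⟨k, hk⟩ := IsPGroup.iff_card.mp hYq
  have hCdvd : Nat.card C ∣ r := by
    rw [Nat.card_zpowers]
    exact orderOf_dvd_of_pow_eq_one har
  have hcop : (Nat.card C).Coprime (Nat.card Y) := by
    rw [hk]
    exact Nat.Coprime.coprime_dvd_left hCdvd
      (Nat.Coprime.pow_right _ ((Nat.coprime_primes hr.out hq.out).mpr hrq))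
  haveI hYnil : Group.IsNilpotent Y := hYq.isNilpotent
  have hsolv : Group.IsSolvable C ∨ Group.IsSolvable Y := Or.inr inferInstance
  have hle : ⁅Y, C⁆ ≤ Y := by
    rw [Subgroup.commutator_le]
    intro u hu c hc
    have h1 : u * c * u⁻¹ * c⁻¹ = u * (c * u⁻¹ * c⁻¹) := by group
    show u * c * u⁻¹ * c⁻¹ ∈ Y
    rw [h1]
    exact Y.mul_mem hu ((Subgroup.mem_normalizer_iff.mp (hCY hc) _).mp (Y.inv_mem hu))
  have hcc := Cfsg.Agent.H01.commutator_commutator_eq hCY hcop hsolv
  -- the inductive hypothesis on proper invariant subgroups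
  have hprop : ∀ W : Subgroup (MulAut A), W ≤ Y → W ≠ Y → a ∈ Subgroup.normalizer (W : Set (MulAut A)) →
      ∀ w ∈ W, a * w * a⁻¹ = w := by
    intro W hWY hne haW
    have hlt : Nat.card W < n := by
      rw [← hn]
      refine lt_of_le_of_ne (Subgroup.card_le_of_le hWY) ?_
      intro he
      exact hne (Subgroup.eq_of_le_of_card_ge hWY he.ge)
    exact ih _ hlt W rfl (hYq.to_le hWY) haW
  have hcomm_of : ∀ W : Subgroup (MulAut A), (∀ w ∈ W, a * w * a⁻¹ = w) → ⁅W, C⁆ = ⊥ := by
    intro W hW
    rw [Subgroup.commutator_eq_bot_iff_le_centralizer]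
    intro w hw
    rw [Subgroup.mem_centralizer_iff]
    intro c hc
    obtain ⟨j, rfl⟩ := Subgroup.mem_zpowers_iff.mp hc
    have h1 : Commute a w := by
      have := hW w hw
      rw [mul_inv_eq_iff_eq_mul] at this
      exact this
    exact (h1.zpow_left j)
  have hY1 : ⁅Y, C⁆ = Y := by
    by_contra hne
    have haN : a ∈ Subgroup.normalizer ((⁅Y, C⁆ : Subgroup (MulAut A)) : Set (MulAut A)) :=
      Cfsg.Agent.H01.mem_normalizer_commutator haY (by
        rw [Subgroup.mem_normalizer_iff]
        intro h
        constructor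
        · intro hh
          have : a * h * a⁻¹ = h := by
            obtain ⟨j, rfl⟩ := Subgroup.mem_zpowers_iff.mp hh
            rw [mul_inv_eq_iff_eq_mul]
            exact (Commute.refl a).zpow_right j
          rw [this]; exact hh
        · intro hh
          have h1 : a * h * a⁻¹ ∈ C := hh
          have h2 : h = a⁻¹ * (a * h * a⁻¹) * a := by group
          rw [h2]
          exact C.mul_mem (C.mul_mem (C.inv_mem (Subgroup.mem_zpowers a)) h1) (Subgroup.mem_zpowers a))
    have h1 := hprop _ hle hne haN
    have h2 := hcomm_of _ h1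
    rw [hcc] at h2
    apply hy₀a
    have h3 : ⁅y₀, a⁆ ∈ ⁅Y, C⁆ := Subgroup.commutator_mem_commutator hy₀ (Subgroup.mem_zpowers a)
    rw [h2, Subgroup.mem_bot, commutatorElement_def] at h3
    have h4 : y₀ * a = a * y₀ := by
      have := mul_inv_eq_one.mp h3
      rw [mul_inv_eq_iff_eq_mul] at this
      exact this
    rw [mul_inv_eq_iff_eq_mul]
    exact h4.symm
  -- the derived subgroup is proper
  let D : Subgroup (MulAut A) := ⁅Y, Y⁆
  have hDle : D ≤ Y := by
    rw [Subgroup.commutator_le]
    intro u hu v hv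
    exact Y.mul_mem (Y.mul_mem (Y.mul_mem hu hv) (Y.inv_mem hu)) (Y.inv_mem hv)
  have hy₀1 : y₀ ≠ 1 := by
    rintro rfl
    apply hy₀a
    simp
  have hDne : D ≠ Y := by
    intro he
    have h1 : commutator Y = ⊤ := by
      apply Subgroup.map_injective Y.subtype_injective
      rw [Subgroup.map_subtype_commutator, ← MonoidHom.range_eq_map, Subgroup.range_subtype]
      exact he
    have h2 : ∀ m, derivedSeries Y m = ⊤ := by
      intro m
      induction m with
      | zero => rfl
      | succ m ihm =>
        rw [derivedSeries_succ, ihm]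
        exact h1
    obtain ⟨m, hm⟩ := (Group.isSolvable_def Y).mp inferInstance
    rw [h2 m] at hm
    have h3 : (⟨y₀, hy₀⟩ : Y) ∈ (⊥ : Subgroup Y) := by rw [← hm]; exact Subgroup.mem_top _
    rw [Subgroup.mem_bot] at h3
    exact hy₀1 (congrArg Subtype.val h3)
  have hDa : ∀ w ∈ D, a * w * a⁻¹ = w :=
    hprop D hDle hDne (Cfsg.Agent.H01.mem_normalizer_commutator haY haY)
  have hAcop : (Nat.card Y).Coprime (Nat.card A) := by
    have hAp : IsPGroup ℓ A := fun g => ⟨1, by rw [pow_one]; exact hA g⟩
    obtain ⟨m, hm⟩ := IsPGroup.iff_card.mp hAp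
    rw [hk, hm]
    exact Nat.Coprime.pow _ _ ((Nat.coprime_primes hq.out hℓ.out).mpr hqℓ)
  by_cases hDbot : D = ⊥
  · -- the abelian case
    have hab : ∀ x ∈ Y, ∀ y ∈ Y, x * y = y * x := by
      intro x hx y hy
      have h1 : ⁅x, y⁆ ∈ D := Subgroup.commutator_mem_commutator hx hy
      rw [hDbot, Subgroup.mem_bot, commutatorElement_def] at h1
      have := mul_inv_eq_one.mp h1
      rw [mul_inv_eq_iff_eq_mul] at this
      exact this
    have hbot := Cfsg.Agent.H19.inf_centralizer_eq_bot_of_abelian hab hCY hcop hY1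
    letI : Fintype Y := Fintype.ofFinite _
    letI : Fintype C := Fintype.ofFinite _
    have hT : ∀ x, Cfsg.Agent.H26.FrobAct.T (MonoidHom.id (MulAut A)) C x = 1 := by
      intro x
      apply hfix
      exact Cfsg.Agent.H26.FrobAct.rho_T (MonoidHom.id (MulAut A)) C (Subgroup.mem_zpowers a) x
    have hfin := Cfsg.Agent.H26.HHCore.frob_norm_trivial (MonoidHom.id (MulAut A)) Y C
      (fun s hs z hz => (Subgroup.mem_normalizer_iff.mp (hCY hs) z).mp hz)
      (by
        intro s hs hs1 z hz hzs
        have h1 := mem_zpowers_of_pow hr.out har hs hs1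
        have h2 : Commute s z := hzs.symm
        obtain ⟨j, hj⟩ := Subgroup.mem_zpowers_iff.mp h1
        have h3 : Commute a z := by rw [← hj]; exact h2.zpow_left j
        have h4 : z ∈ Y ⊓ Subgroup.centralizer (C : Set (MulAut A)) := by
          refine Subgroup.mem_inf.mpr ⟨hz, Subgroup.mem_centralizer_iff.mpr ?_⟩
          intro c hc
          obtain ⟨i, rfl⟩ := Subgroup.mem_zpowers_iff.mp hc
          exact (h3.zpow_left i)
        rw [hbot, Subgroup.mem_bot] at h4
        exact h4)
      hAcop hT
    apply hy₀1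
    ext v
    exact hfin y₀ hy₀ v
  · -- the nonabelian case
    obtain ⟨⟨c, hcD⟩, hc1'⟩ := (Subgroup.ne_bot_iff_exists_ne_one.mp hDbot)
    have hc1 : c ≠ 1 := fun he => hc1' (Subtype.ext he)
    have hDC : ∀ w ∈ D, ∀ s ∈ C, s * w = w * s := by
      intro w hw s hs
      obtain ⟨j, rfl⟩ := Subgroup.mem_zpowers_iff.mp hs
      have h1 : Commute a w := by
        have := hDa w hw
        rw [mul_inv_eq_iff_eq_mul] at this
        exact this
      exact h1.zpow_left j
    let Zg : Subgroup (MulAut A) := Y ⊓ Subgroup.centralizer (C : Set (MulAut A))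
    have hZgY : Zg ≤ Y := inf_le_left
    have hZgC : ⁅C, Zg⁆ = ⊥ := by
      rw [Subgroup.commutator_comm, Subgroup.commutator_eq_bot_iff_le_centralizer]
      exact inf_le_right
    have hrot : ⁅⁅Y, C⁆, Zg⁆ = ⊥ := by
      apply Subgroup.commutator_commutator_eq_bot_of_rotate
      · rw [hZgC, Subgroup.commutator_bot_left]
      · rw [Subgroup.commutator_eq_bot_iff_le_centralizer]
        intro w hw
        rw [Subgroup.mem_centralizer_iff]
        intro s hs
        exact hDC w (Subgroup.commutator_mono hZgY le_rfl hw) s hs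
    rw [hY1] at hrot
    have hZcen : ∀ z ∈ Zg, ∀ y ∈ Y, z * y = y * z := by
      intro z hz y hy
      have h1 : ⁅y, z⁆ ∈ ⁅Y, Zg⁆ := Subgroup.commutator_mem_commutator hy hz
      rw [hrot, Subgroup.mem_bot, commutatorElement_def] at h1
      have := mul_inv_eq_one.mp h1
      rw [mul_inv_eq_iff_eq_mul] at this
      exact this.symm
    have mem_Zg : ∀ w ∈ Y, a * w * a⁻¹ = w → w ∈ Zg := by
      intro w hw h
      refine Subgroup.mem_inf.mpr ⟨hw, Subgroup.mem_centralizer_iff.mpr ?_⟩
      intro s hs
      obtain ⟨j, rfl⟩ := Subgroup.mem_zpowers_iff.mp hs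
      have h1 : Commute a w := by
        rw [mul_inv_eq_iff_eq_mul] at h
        exact h
      exact h1.zpow_left j
    have Zg_a : ∀ w ∈ Zg, a * w * a⁻¹ = w := by
      intro w hw
      have h1 := (Subgroup.mem_inf.mp hw).2
      have h2 := Subgroup.mem_centralizer_iff.mp h1 a (Subgroup.mem_zpowers a)
      rw [mul_inv_eq_iff_eq_mul]
      exact h2
    have hDZ : D ≤ Zg := fun w hw => mem_Zg w (hDle hw) (hDa w hw)
    letI : Fintype Y := Fintype.ofFinite _
    let Z₀ : Subgroup Y := Zg.subgroupOf Y
    let σ : MulAut Y := Y.normalizerMonoidHom ⟨a, haY⟩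
    have hσ : ∀ y : Y, ((σ y : Y) : MulAut A) = a * y * a⁻¹ := fun y => rfl
    have hσk : ∀ (k : ℕ) (y : Y), (((σ ^ k) y : Y) : MulAut A) = a ^ k * y * (a ^ k)⁻¹ := by
      intro k
      induction k with
      | zero => intro y; simp
      | succ k ihk =>
        intro y
        rw [pow_succ', MulAut.mul_apply, hσ, ihk, pow_succ']
        group
    let F := AlgebraicClosure (ZMod ℓ)
    have hcD' : (⟨c, hDle hcD⟩ : Y) ∈ Z₀ := by
      rw [Subgroup.mem_subgroupOf]
      exact hDZ hcD
    obtain ⟨N, hN0, hN2, hNr, hNb⟩ := Cfsg.Agent.H26.ExtraRep.T2abs (p := ℓ) (F := F) hA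
      (Y.subtype) a (Z := Z₀) (σ := σ) (h := r)
      (by
        intro z hz y
        apply Subtype.ext
        exact hZcen z (by simpa [Z₀, Subgroup.mem_subgroupOf] using hz) y y.2)
      (by
        intro t y
        rw [Subgroup.mem_subgroupOf]
        apply hDZ
        have h1 : ⁅(t : MulAut A), (y : MulAut A)⁆ ∈ D := Subgroup.commutator_mem_commutator t.2 y.2
        exact h1)
      (by
        rw [hk]
        exact Nat.Coprime.pow_left _ ((Nat.coprime_primes hq.out hℓ.out).mpr hqℓ))
      (by
        intro y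
        change a * (y : MulAut A) = (a * y * a⁻¹) * a
        group)
      har hr.out.pos ((Nat.coprime_primes hr.out hℓ.out).mpr hrℓ)
      (by
        intro z hz
        apply Subtype.ext
        exact Zg_a z (by simpa [Z₀, Subgroup.mem_subgroupOf] using hz))
      (by
        intro i hi0 hir y hy
        have hyZ : (((σ ^ i) y * y⁻¹ : Y) : MulAut A) ∈ Zg := by
          simpa [Z₀, Subgroup.mem_subgroupOf] using hy
        have hyZ' : a ^ i * y * (a ^ i)⁻¹ * (y : MulAut A)⁻¹ ∈ Zg := by
          have : (((σ ^ i) y * y⁻¹ : Y) : MulAut A) = a ^ i * y * (a ^ i)⁻¹ * (y : MulAut A)⁻¹ := by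
            rw [Subgroup.coe_mul, hσk, Subgroup.coe_inv]
          rwa [this] at hyZ
        set w := a ^ i * y * (a ^ i)⁻¹ * (y : MulAut A)⁻¹ with hw
        have hg : (a ^ i) ^ r = 1 := by rw [← pow_mul, mul_comm, pow_mul, har, one_pow]
        have hwz : (a ^ i) * w * (a ^ i)⁻¹ = w := by
          have h1 := Zg_a w hyZ'
          have h2 : Commute a w := by
            rw [mul_inv_eq_iff_eq_mul] at h1
            exact h1
          rw [mul_inv_eq_iff_eq_mul]
          exact h2.pow_left i
        have hwq : w ^ (q ^ k) = 1 := by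
          have h1 : (⟨w, hZgY hyZ'⟩ : Y) ^ (q ^ k) = 1 := by
            rw [← hk]
            exact pow_card_eq_one'
          exact congrArg Subtype.val h1
        have hcopr : r.Coprime (q ^ k) :=
          Nat.Coprime.pow_right _ ((Nat.coprime_primes hr.out hq.out).mpr hrq)
        have h3 := Cfsg.Agent.H26.ExtraRep.conj_eq_of_stab' hg hwz hwq hcopr hw.symm
        rw [Subgroup.mem_subgroupOf]
        apply mem_Zg _ y.2
        -- `a` is a power of `a ^ i`
        have hcopi : Nat.Coprime i r := by
          apply Nat.Coprime.symm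
          exact (Nat.Prime.coprime_iff_not_dvd hr.out).mpr (fun hd => by
            have := Nat.le_of_dvd hi0 hd
            omega)
        have h4 : Commute (a ^ i) (y : MulAut A) := by
          rw [mul_inv_eq_iff_eq_mul] at h3
          exact h3
        have hone : a ^ ((i.gcdA r) * (i : ℤ) + (i.gcdB r) * (r : ℤ)) = a := by
          have := Nat.gcd_eq_gcd_ab i r
          rw [hcopi] at this
          have h5 : (i.gcdA r) * (i : ℤ) + (i.gcdB r) * (r : ℤ) = 1 := by
            rw [mul_comm (i.gcdA r), mul_comm (i.gcdB r)]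
            push_cast at this
            linarith
          rw [h5, zpow_one]
        have h6 : Commute a (y : MulAut A) := by
          have h7 : a = (a ^ i) ^ (i.gcdA r) := by
            conv_lhs => rw [← hone]
            rw [zpow_add, mul_comm (i.gcdB r), zpow_mul a (r : ℤ), zpow_natCast, har, one_zpow,
              mul_one, mul_comm, zpow_mul, zpow_natCast]
          rw [h7]
          exact h4.zpow_left _
        rw [mul_inv_eq_iff_eq_mul]
        exact h6)
      hcD'
      (by
        intro he
        exact hc1 (congrArg Subtype.val (show (⟨c, hDle hcD⟩ : Y) = 1 from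
          Subtype.ext he)))
      (by
        intro χ hmul h1 hχc y hyZ
        by_contra hcon
        push Not at hcon
        -- commutators lie in `Z₀`
        have hcZ : ∀ t u : Y, t * u * t⁻¹ * u⁻¹ ∈ Z₀ := by
          intro t u
          rw [Subgroup.mem_subgroupOf]
          apply hDZ
          have h1 : ⁅(t : MulAut A), (u : MulAut A)⁆ ∈ D := Subgroup.commutator_mem_commutator t.2 u.2
          exact h1
        have hZcen' : ∀ z ∈ Z₀, ∀ u : Y, z * u = u * z := by
          intro z hz u
          apply Subtype.ext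
          exact hZcen z (by simpa [Z₀, Subgroup.mem_subgroupOf] using hz) u u.2
        have hinv : ∀ w ∈ Z₀, χ w = 1 → χ w⁻¹ = 1 := by
          intro w hw hwχ
          have h2 := hmul w hw w⁻¹ (Z₀.inv_mem hw)
          rw [mul_inv_cancel, h1, hwχ, one_mul] at h2
          exact h2.symm
        let R : Subgroup Y :=
          { carrier := {u | ∀ t : Y, χ (t * u * t⁻¹ * u⁻¹) = 1}
            one_mem' := by
              intro t
              have : t * 1 * t⁻¹ * (1 : Y)⁻¹ = 1 := by group
              rw [this]; exact h1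
            mul_mem' := by
              intro u v hu hv t
              have e : t * (u * v) * t⁻¹ * (u * v)⁻¹ =
                  (t * u * t⁻¹ * u⁻¹) * (t * v * t⁻¹ * v⁻¹) := by
                have h2 := hZcen' _ (hcZ t v) u⁻¹
                calc t * (u * v) * t⁻¹ * (u * v)⁻¹ =
                      (t * u * t⁻¹ * u⁻¹) * (u * (t * v * t⁻¹ * v⁻¹) * u⁻¹) := by group
                  _ = (t * u * t⁻¹ * u⁻¹) * (t * v * t⁻¹ * v⁻¹) := by
                    congr 1
                    rw [mul_assoc u, h2]
                    group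
              rw [e, hmul _ (hcZ t u) _ (hcZ t v), hu t, hv t, one_mul]
            inv_mem' := by
              intro u hu t
              have e : t * u⁻¹ * t⁻¹ * u⁻¹⁻¹ = (t * u * t⁻¹ * u⁻¹)⁻¹ := by
                have h2 := hZcen' _ (hcZ t u) u⁻¹
                have h3 : u⁻¹ * (t * u * t⁻¹ * u⁻¹)⁻¹ * u = (t * u * t⁻¹ * u⁻¹)⁻¹ := by
                  have h4 : (t * u * t⁻¹ * u⁻¹)⁻¹ * u⁻¹ = u⁻¹ * (t * u * t⁻¹ * u⁻¹)⁻¹ := by
                    have h5 : (t * u * t⁻¹ * u⁻¹) * u⁻¹ = u⁻¹ * (t * u * t⁻¹ * u⁻¹) := h2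
                    calc (t * u * t⁻¹ * u⁻¹)⁻¹ * u⁻¹ =
                          (t * u * t⁻¹ * u⁻¹)⁻¹ * (u⁻¹ * (t * u * t⁻¹ * u⁻¹)) * (t * u * t⁻¹ * u⁻¹)⁻¹ := by
                            group
                      _ = (t * u * t⁻¹ * u⁻¹)⁻¹ * ((t * u * t⁻¹ * u⁻¹) * u⁻¹) * (t * u * t⁻¹ * u⁻¹)⁻¹ := by
                            rw [h5]
                      _ = u⁻¹ * (t * u * t⁻¹ * u⁻¹)⁻¹ := by group
                  rw [← h4]; group
                rw [← h3]; group
              rw [e]
              exact hinv _ (hcZ t u) (hu t) }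
        have hyR : y ∈ R := fun t => hcon t
        have hRσ : ∀ u : Y, σ u ∈ R ↔ u ∈ R := by
          intro u
          have key : ∀ t : Y, σ t * σ u * (σ t)⁻¹ * (σ u)⁻¹ = t * u * t⁻¹ * u⁻¹ := by
            intro t
            have h2 : σ t * σ u * (σ t)⁻¹ * (σ u)⁻¹ = σ (t * u * t⁻¹ * u⁻¹) := by
              simp only [map_mul, map_inv]
            rw [h2]
            apply Subtype.ext
            rw [hσ]
            exact Zg_a _ (by simpa [Z₀, Subgroup.mem_subgroupOf] using hcZ t u)
          constructor
          · intro h t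
            rw [← key t]
            exact h (σ t)
          · intro h t
            have h3 := key (σ.symm t)
            rw [MulEquiv.apply_symm_apply] at h3
            rw [h3]
            exact h _
        let R' : Subgroup (MulAut A) := R.map Y.subtype
        have hR'Y : R' ≤ Y := by
          rintro _ ⟨u, -, rfl⟩
          exact u.2
        have haR' : a ∈ Subgroup.normalizer (R' : Set (MulAut A)) := by
          rw [Subgroup.mem_normalizer_iff]
          intro h
          constructor
          · rintro ⟨u, hu, rfl⟩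
            exact ⟨σ u, (hRσ u).mpr hu, rfl⟩
          · intro hh
            obtain ⟨u, hu, hue⟩ := hh
            have hhY : h ∈ Y := by
              have h2 : a * h * a⁻¹ ∈ Y := by
                rw [← hue]; exact u.2
              exact (Subgroup.mem_normalizer_iff.mp haY h).mpr h2
            refine ⟨⟨h, hhY⟩, (hRσ _).mp ?_, rfl⟩
            have h3 : σ ⟨h, hhY⟩ = u := by
              apply Subtype.ext
              rw [hσ]
              exact hue.symm
            rw [h3]
            exact hu
        by_cases hR : R' = Y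
        · -- the character is trivial on commutators
          apply hχc
          have hcc' : (⟨c, hDle hcD⟩ : Y) ∈ commutator Y := by
            have h2 : c ∈ (commutator Y).map Y.subtype := by
              rw [Subgroup.map_subtype_commutator]
              exact hcD
            obtain ⟨u, hu, hue⟩ := h2
            have : u = ⟨c, hDle hcD⟩ := Subtype.ext hue
            rwa [← this]
          have hall : ∀ u : Y, u ∈ R := by
            intro u
            have h2 : (u : MulAut A) ∈ R' := by rw [hR]; exact u.2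
            obtain ⟨v, hv, hve⟩ := h2
            have : v = u := Subtype.ext hve
            rwa [← this]
          have hP : ∀ w ∈ commutator Y, w ∈ Z₀ ∧ χ w = 1 := by
            intro w hw
            rw [commutator_def, Subgroup.commutator_def] at hw
            induction hw using Subgroup.closure_induction with
            | mem x hx =>
              obtain ⟨g₁, -, g₂, -, rfl⟩ := hx
              exact ⟨hcZ g₁ g₂, hall g₂ g₁⟩
            | one => exact ⟨Z₀.one_mem, h1⟩
            | mul u v _ _ hu hv =>
              exact ⟨Z₀.mul_mem hu.1 hv.1, by rw [hmul _ hu.1 _ hv.1, hu.2, hv.2, one_mul]⟩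
            | inv u _ hu => exact ⟨Z₀.inv_mem hu.1, hinv _ hu.1 hu.2⟩
          exact (hP _ hcc').2
        · have h2 := hprop R' hR'Y hR haR' y ⟨y, hyR, rfl⟩
          apply hyZ
          rw [Subgroup.mem_subgroupOf]
          exact mem_Zg _ y.2 h2)
    have hNb' := hNb hfix
    -- arithmetic
    have hIdx : Z₀.index ∣ q ^ k := by
      rw [← hk]
      exact Subgroup.index_dvd_card Z₀
    have hNdvd : N ∣ q ^ k := by
      refine dvd_trans ?_ hIdx
      rw [← hN2]
      exact dvd_pow_self N two_ne_zero
    have hNodd : Odd N := by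
      have h2 : Odd (q ^ k) := Odd.pow (hq.out.odd_of_ne_two hq2)
      exact Odd.of_dvd_nat h2 hNdvd
    have hrodd : Odd r := hr.out.odd_of_ne_two hr2
    have hNlt : N < r := by omega
    rw [Nat.mod_eq_of_lt hNlt] at hNr
    rcases hNr with h | h | h
    · omega
    · subst h
      rw [one_pow] at hN2
      have htop : Z₀ = ⊤ := Subgroup.index_eq_one.mp hN2.symm
      apply hy₀a
      have h2 : (⟨y₀, hy₀⟩ : Y) ∈ Z₀ := by rw [htop]; exact Subgroup.mem_top _
      rw [Subgroup.mem_subgroupOf] at h2
      exact Zg_a _ h2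
    · obtain ⟨m, hm⟩ := hNodd
      obtain ⟨m', hm'⟩ := hrodd
      omega

end Cfsg.Agent.H26.CoprimeZ
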