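import Mathlib
set_option autoImplicit false
set_option linter.style.haveILetI false
set_option linter.unusedVariables false
set_option linter.unusedSectionVars false
set_option linter.unusedSimpArgs false

open Module

namespace Cfsg.Agent.H26.FrobFree

/-- Galois descent for a semilinear action: the fixed vectors span over `L`. -/
theorem span_fixed {k L Y H₀ : Type*} [Field k] [Field L] [Algebra k L]
    [AddCommGroup Y] [Module k Y] [Module L Y] [IsScalarTower k L Y] [FiniteDimensional L Y]
    [Group H₀] [Finite H₀]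
    (ι : H₀ →* (L ≃ₐ[k] L)) (hι : Function.Injective ι)
    (ρ : H₀ →* (Y →ₗ[k] Y)) (hρ : ∀ h (l : L) (y : Y), ρ h (l • y) = ι h l • ρ h y) :
    Submodule.span L {y : Y | ∀ h, ρ h y = y} = ⊤ := by
  classical
  haveI := Fintype.ofFinite H₀
  by_contra hne
  obtain ⟨φ, hφ0, hφ⟩ := Submodule.exists_le_ker_of_lt_top _ (lt_top_iff_ne_top.mpr hne)
  obtain ⟨y, hy⟩ : ∃ y, φ y ≠ 0 := by
    by_contra hcon
    push Not at hcon
    exact hφ0 (LinearMap.ext hcon)
  have hfix : ∀ l : L, (∑ h : H₀, ρ h (l • y)) ∈ {y : Y | ∀ h, ρ h y = y} := by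
    intro l g
    rw [map_sum]
    refine Fintype.sum_equiv (Equiv.mulLeft g) _ _ ?_
    intro h
    simp [map_mul]
  have hzero : ∀ l : L, ∑ h : H₀, φ (ρ h y) * ι h l = 0 := by
    intro l
    have := hφ (Submodule.subset_span (hfix l))
    rw [LinearMap.mem_ker, map_sum] at this
    rw [← this]
    refine Finset.sum_congr rfl ?_
    intro h _
    rw [hρ, map_smul, smul_eq_mul, mul_comm]
  -- Dedekind
  let f : H₀ → (L →* L) := fun h => ((ι h : L ≃ₐ[k] L) : L ≃* L).toMonoidHom
  have hf : Function.Injective f := by
    intro a b hab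
    apply hι
    ext l
    exact DFunLike.congr_fun hab l
  have hli := (linearIndependent_monoidHom L L).comp f hf
  rw [Fintype.linearIndependent_iff] at hli
  have := hli (fun h => φ (ρ h y)) (by
    funext l
    have h0 := hzero l
    simp only [Finset.sum_apply, Pi.smul_apply, smul_eq_mul, Function.comp, Pi.zero_apply]
    exact h0) 1
  apply hy
  simpa using this

/-- Normal basis form: `L` is spanned by the translates of one element over the fixed field. -/
theorem exists_normal {k L H₀ : Type*} [Field k] [Field L] [Algebra k L] [FiniteDimensional k L]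
    [Group H₀] [Finite H₀] [Fintype H₀]
    (ι : H₀ →* (L ≃ₐ[k] L)) (hι : Function.Injective ι) :
    finrank (IntermediateField.fixedField ι.range) L = Fintype.card H₀ ∧
    ∃ x : L, Submodule.span (IntermediateField.fixedField ι.range) (Set.range fun h : H₀ => ι h x) = ⊤ := by
  classical
  have hcard : finrank (IntermediateField.fixedField ι.range) L = Fintype.card H₀ := by
    rw [IntermediateField.finrank_fixedField_eq_card, ← Nat.card_eq_fintype_card]
    exact (Nat.card_congr (MonoidHom.ofInjective hι).toEquiv).symm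
  refine ⟨hcard, ?_⟩
  obtain ⟨x, hx⟩ := exists_linearIndependent_algEquiv_apply (IntermediateField.fixedField ι.range) L
  let e : H₀ ≃ Gal(L/IntermediateField.fixedField ι.range) :=
    ((MonoidHom.ofInjective hι).trans (IntermediateField.subgroupEquivAlgEquiv ι.range)).toEquiv
  have hli : LinearIndependent (IntermediateField.fixedField ι.range) (fun h : H₀ => ι h x) :=
    hx.comp e e.injective
  exact ⟨x, hli.span_eq_top_of_card_eq_finrank' hcard.symm⟩

/-- Free module for a semilinear faithful action. -/
theorem semilinear_free {k L Y H₀ : Type*} [Field k] [Field L] [Algebra k L] [FiniteDimensional k L]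
    [AddCommGroup Y] [Module k Y] [Module L Y] [IsScalarTower k L Y] [FiniteDimensional k Y]
    [Group H₀] [Finite H₀]
    (ι : H₀ →* (L ≃ₐ[k] L)) (hι : Function.Injective ι)
    (ρ : H₀ →* (Y →ₗ[k] Y)) (hρ : ∀ h (l : L) (y : Y), ρ h (l • y) = ι h l • ρ h y) :
    ∃ W : Submodule k Y, (⨆ h, W.map (ρ h)) = ⊤ ∧ Nat.card H₀ * finrank k W ≤ finrank k Y := by
  classical
  haveI := Fintype.ofFinite H₀
  haveI : FiniteDimensional L Y := Module.Finite.of_restrictScalars_finite k L Y
  have hspan := span_fixed ι hι ρ hρ
  obtain ⟨b, hbF, hbspan, hbli⟩ := exists_linearIndependent L {y : Y | ∀ h, ρ h y = y}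
  have hbtop : ⊤ ≤ Submodule.span L (Set.range ((↑) : b → Y)) := by
    rw [Subtype.range_coe, hbspan, hspan]
  let B : Basis b L Y := Basis.mk hbli hbtop
  haveI : Finite b := Module.Finite.finite_basis B
  haveI := Fintype.ofFinite b
  obtain ⟨hcard, x, hx⟩ := exists_normal ι hι
  set k₀ := IntermediateField.fixedField ι.range with hk₀
  have hfixk : ∀ (c : k₀) (h : H₀), ι h (c : L) = c := fun c h =>
    (IntermediateField.mem_fixedField_iff _ _).mp c.2 _ ⟨h, rfl⟩
  -- the map
  let g : (b → k₀) →ₗ[k] Y :=
    { toFun := fun c => ∑ i, ((c i : k₀) : L) • (x • (i : Y))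
      map_add' := by
        intro c d
        simp [Finset.sum_add_distrib, add_smul]
      map_smul' := by
        intro r c
        simp only [Pi.smul_apply, RingHom.id_apply, Finset.smul_sum]
        refine Finset.sum_congr rfl ?_
        intro i _
        rw [← smul_assoc r ((c i : k₀) : L)]
        rfl }
  have hgsingle : ∀ (i : b) (c : k₀), g (Pi.single i c) = (c : L) • (x • (i : Y)) := by
    intro i c
    show ∑ j, (((Pi.single i c : b → k₀) j : k₀) : L) • (x • (j : Y)) = _
    rw [Finset.sum_eq_single i]
    · simp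
    · intro j _ hj
      simp [Pi.single_eq_of_ne hj]
    · simp
  refine ⟨LinearMap.range g, ?_, ?_⟩
  · rw [eq_top_iff]
    intro y _
    rw [← B.sum_repr y]
    refine Submodule.sum_mem _ ?_
    intro i _
    have hmem : (B.repr y i) ∈ Submodule.span k₀ (Set.range fun h : H₀ => ι h x) := by
      rw [hx]; trivial
    obtain ⟨c, hc⟩ := (Submodule.mem_span_range_iff_exists_fun k₀).mp hmem
    rw [← hc, Finset.sum_smul]
    refine Submodule.sum_mem _ ?_
    intro h _
    refine Submodule.mem_iSup_of_mem h ?_
    refine ⟨g (Pi.single i (c h)), ⟨_, rfl⟩, ?_⟩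
    rw [hgsingle]
    have hBi : B i = (i : Y) := by simp [B]
    rw [hBi]
    have hfi : ρ h (i : Y) = i := hbF i.2 h
    rw [hρ, hρ, hfixk, hfi]
    rw [smul_assoc]
    rfl
  · have h1 : finrank k (LinearMap.range g) ≤ Fintype.card b * finrank k k₀ := by
      refine (LinearMap.finrank_range_le g).trans ?_
      rw [Module.finrank_pi_fintype]
      simp
    have h2 : finrank k Y = finrank k k₀ * (Fintype.card H₀ * Fintype.card b) := by
      rw [← Module.finrank_mul_finrank k L Y, ← Module.finrank_mul_finrank k k₀ L, hcard,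
        Module.finrank_eq_card_basis B]
      ring
    rw [h2, Nat.card_eq_fintype_card]
    calc Fintype.card H₀ * finrank k (LinearMap.range g)
        ≤ Fintype.card H₀ * (Fintype.card b * finrank k k₀) := Nat.mul_le_mul_left _ h1
      _ = _ := by ring

theorem finrank_of_internal {k R V ι : Type*} [Field k] [CommRing R] [Algebra k R]
    [AddCommGroup V] [Module k V] [Module R V] [IsScalarTower k R V] [FiniteDimensional k V]
    [Fintype ι] [DecidableEq ι] (p : ι → Submodule R V) (h : DirectSum.IsInternal p) :
    finrank k V = ∑ i, finrank k (p i) := by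
  haveI : ∀ i, FiniteDimensional k (p i) := fun i =>
    FiniteDimensional.of_injective ((p i).subtype.restrictScalars k) Subtype.val_injective
  let e : (DirectSum ι fun i => p i) ≃ₗ[k] V :=
    LinearEquiv.ofBijective ((DirectSum.coeLinearMap p).restrictScalars k) h
  rw [← e.finrank_eq, Module.finrank_directSum]

/-- The action of `H` on ideals through `θ`. -/
@[reducible] def idealAct {k R H : Type*} [Field k] [CommRing R] [Algebra k R] [Group H]
    (θ : H →* (R ≃ₐ[k] R)) : MulAction H (Ideal R) where
  smul h I := I.comap (θ h⁻¹)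
  one_smul I := by
    ext r
    show θ 1⁻¹ r ∈ I ↔ _
    simp
  mul_smul a b I := by
    ext r
    show θ (a * b)⁻¹ r ∈ I ↔ θ b⁻¹ (θ a⁻¹ r) ∈ I
    simp [mul_inv_rev]

theorem mem_act {k R H : Type*} [Field k] [CommRing R] [Algebra k R] [Group H]
    (θ : H →* (R ≃ₐ[k] R)) (h : H) (I : Ideal R) (r : R) :
    r ∈ (idealAct θ).toSMul.smul h I ↔ θ h⁻¹ r ∈ I := Iff.rfl

end Cfsg.Agent.H26.FrobFree
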