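import Cfsg.Agent.Lib.H26.FrobFree
import Mathlib
set_option autoImplicit false
set_option linter.style.haveILetI false
set_option linter.unusedVariables false
set_option linter.unusedSectionVars false
set_option linter.unusedSimpArgs false

open Module

namespace Cfsg.Agent.H26.FrobFree

theorem thmT {k R V H : Type*} [Field k] [CommRing R] [Algebra k R] [FiniteDimensional k R]
    [AddCommGroup V] [Module k V] [Module R V] [IsScalarTower k R V] [FiniteDimensional k V]
    [Group H] [Finite H]
    (σ : H →* (V →ₗ[k] V)) (θ : H →* (R ≃ₐ[k] R))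
    (hc : ∀ h (r : R) (v : V), σ h (r • v) = θ h r • σ h v)
    (hsimple : ∀ I : Ideal R, (∀ h, ∀ r ∈ I, θ h r ∈ I) →
      Submodule.torsionBySet R V I ≠ ⊥ → Submodule.torsionBySet R V I = ⊤)
    (hstar : ∀ M : Ideal R, M.IsMaximal → Submodule.torsionBySet R V M ≠ ⊥ → ∀ h, h ≠ 1 →
      (∀ r ∈ M, θ h r ∈ M) → ∃ r, θ h r - r ∉ M) :
    ∃ W : Submodule k V, (⨆ h, W.map (σ h)) = ⊤ ∧ Nat.card H * finrank k W ≤ finrank k V := by
  classical
  haveI := Fintype.ofFinite H
  by_cases hV : Subsingleton V
  · exact ⟨⊥, Subsingleton.elim _ _, by simp⟩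
  haveI : Nontrivial V := not_subsingleton_iff_nontrivial.mp hV
  haveI : IsArtinianRing R := IsArtinianRing.of_finite k R
  haveI : IsNoetherianRing R := inferInstance
  obtain ⟨M, hM⟩ := associatedPrimes.nonempty R V
  obtain ⟨hPrime, y₀, hy₀⟩ := isAssociatedPrime_iff.mp hM
  haveI : M.IsMaximal := IsArtinianRing.isMaximal_of_isPrime M
  have hy₀M : ∀ r : R, r ∈ M ↔ r • y₀ = 0 := by
    intro r
    rw [hy₀, Submodule.mem_colon_singleton, Submodule.mem_bot]
  have hy₀ne : y₀ ≠ 0 := by
    rintro rfl
    apply hPrime.ne_top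
    rw [Ideal.eq_top_iff_one, hy₀M]
    simp
  have hYne : Submodule.torsionBySet R V M ≠ ⊥ := by
    intro hbot
    apply hy₀ne
    have : y₀ ∈ Submodule.torsionBySet R V M := by
      rw [Submodule.mem_torsionBySet_iff]
      rintro ⟨a, ha⟩
      exact (hy₀M a).mp ha
    rw [hbot] at this
    simpa using this
  letI := idealAct θ
  have hmem : ∀ (h : H) (I : Ideal R) (r : R), r ∈ h • I ↔ θ h⁻¹ r ∈ I := fun _ _ _ => Iff.rfl
  haveI : Finite (MulAction.orbit H M) := (Set.finite_range fun h : H => h • M).to_subtype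
  haveI : Fintype (MulAction.orbit H M) := Fintype.ofFinite _
  let S : Finset (Ideal R) := (MulAction.orbit H M).toFinset
  have hS : ∀ J, J ∈ S ↔ ∃ h : H, h • M = J := by
    intro J
    simp only [S, Set.mem_toFinset, MulAction.mem_orbit_iff]
  have hSmax : ∀ J ∈ S, J.IsMaximal := by
    intro J hJ
    obtain ⟨h, rfl⟩ := (hS J).mp hJ
    exact Ideal.comap_isMaximal_of_equiv (θ h⁻¹)
  have hp : (S : Set (Ideal R)).Pairwise fun i j => id i ⊔ id j = ⊤ := by
    intro i hi j hj hij
    exact (hSmax i hi).coprime_of_ne (hSmax j hj) hij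
  have hMS : M ∈ S := (hS M).mpr ⟨1, one_smul _ _⟩
  have htors : Module.IsTorsionBySet R V (⨅ i ∈ S, id i : Ideal R) := by
    rw [Module.isTorsionBySet_iff_torsionBySet_eq_top]
    apply hsimple
    · intro h r hr
      simp only [Ideal.mem_iInf, id] at hr ⊢
      intro J hJ
      obtain ⟨g, rfl⟩ := (hS J).mp hJ
      rw [hmem]
      have := hr ((h⁻¹ * g) • M) ((hS _).mpr ⟨_, rfl⟩)
      rw [hmem] at this
      have h2 : θ (h⁻¹ * g)⁻¹ r = θ g⁻¹ (θ h r) := by
        simp [mul_inv_rev]
      rwa [h2] at this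
    · intro hbot
      apply hYne
      rw [eq_bot_iff, ← hbot]
      apply Submodule.torsionBySet_le_torsionBySet_of_subset
      intro r hr
      simp only [SetLike.mem_coe, Ideal.mem_iInf, id] at hr
      exact hr M hMS
  have hint := Submodule.torsionBySet_isInternal hp htors
  have hrsmul : ∀ (t : H) (r : R) (v : V), r • σ t v = σ t (θ t⁻¹ r • v) := by
    intro t r v
    rw [hc, ← AlgEquiv.mul_apply, ← map_mul]
    simp
  have htrans : ∀ (t : H) (I : Ideal R), ∀ y ∈ Submodule.torsionBySet R V (I : Set R),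
      σ t y ∈ Submodule.torsionBySet R V ((t • I : Ideal R) : Set R) := by
    intro t I y hy
    rw [Submodule.mem_torsionBySet_iff] at hy ⊢
    rintro ⟨r, hr⟩
    show r • σ t y = 0
    rw [hrsmul, hy ⟨_, hr⟩, map_zero]
  let Y := Submodule.torsionBySet R V (M : Set R)
  haveI hfdY : FiniteDimensional k Y :=
    FiniteDimensional.of_injective (Y.subtype.restrictScalars k) Subtype.val_injective
  letI : Field (R ⧸ M) := Ideal.Quotient.field M
  haveI : FiniteDimensional k (R ⧸ M) :=
    Module.Finite.of_surjective (Ideal.Quotient.mkₐ k M).toLinearMap Ideal.Quotient.mk_surjective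
  let H₀ := MulAction.stabilizer H M
  have hs0 : ∀ h : H₀, ∀ r, θ (h : H)⁻¹ r ∈ M ↔ r ∈ M := by
    intro h r
    have h1 : (h : H) • M = M := h.2
    rw [← hmem, h1]
  have hs : ∀ h : H₀, ∀ r, θ (h : H) r ∈ M ↔ r ∈ M := by
    intro h r
    have := hs0 h⁻¹ r
    simpa using this
  have hmapeq : ∀ h : H₀, M = M.map ((θ h : R ≃ₐ[k] R) : R →+* R) := by
    intro h
    ext r
    constructor
    · intro hr
      have h1 : θ (h : H)⁻¹ r ∈ M := (hs0 h r).mpr hr
      have h2 := Ideal.mem_map_of_mem ((θ h : R ≃ₐ[k] R) : R →+* R) h1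
      have h3 : ((θ h : R ≃ₐ[k] R) : R →+* R) (θ (h : H)⁻¹ r) = r := by
        show θ h (θ (h : H)⁻¹ r) = r
        rw [← AlgEquiv.mul_apply, ← map_mul]
        simp
      rwa [h3] at h2
    · intro hr
      have h1 : M.map ((θ h : R ≃ₐ[k] R) : R →+* R) ≤ M :=
        Ideal.map_le_iff_le_comap.mpr (fun x hx => (hs h x).mpr hx)
      exact h1 hr
  let ι : H₀ →* ((R ⧸ M) ≃ₐ[k] (R ⧸ M)) :=
    { toFun := fun h => Ideal.quotientEquivAlg M M (θ h) (hmapeq h)
      map_one' := by
        ext x
        obtain ⟨r, rfl⟩ := Ideal.Quotient.mk_surjective x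
        simp
      map_mul' := by
        intro a b
        ext x
        obtain ⟨r, rfl⟩ := Ideal.Quotient.mk_surjective x
        simp }
  have hιmk : ∀ (h : H₀) (r : R), ι h (Ideal.Quotient.mk M r) = Ideal.Quotient.mk M (θ h r) := by
    intro h r
    rfl
  have hι : Function.Injective ι := by
    rw [injective_iff_map_eq_one]
    intro h hh
    by_contra hne
    have hne' : (h : H) ≠ 1 := fun h1 => hne (Subtype.ext h1)
    obtain ⟨r, hr⟩ := hstar M inferInstance hYne h hne' (fun r hr => (hs h r).mpr hr)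
    apply hr
    rw [← Ideal.Quotient.eq, ← hιmk, hh]
    rfl
  have hσY : ∀ (h : H₀) (y : Y), σ h y ∈ Y := by
    intro h y
    have := htrans h M y y.2
    have h1 : (h : H) • M = M := h.2
    rwa [h1] at this
  let ρ : H₀ →* (Y →ₗ[k] Y) :=
    { toFun := fun h =>
        { toFun := fun y => ⟨σ h y, hσY h y⟩
          map_add' := by intro a b; ext; simp
          map_smul' := by intro c a; ext; simp }
      map_one' := by ext; simp
      map_mul' := by intro a b; ext; simp }
  have hρval : ∀ (h : H₀) (y : Y), ((ρ h y : Y) : V) = σ h y := fun _ _ => rfl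
  have hρ : ∀ (h : H₀) (l : R ⧸ M) (y : Y), ρ h (l • y) = ι h l • ρ h y := by
    intro h l y
    obtain ⟨r, rfl⟩ := Ideal.Quotient.mk_surjective l
    rw [hιmk, Submodule.torsionBySet.mk_smul, Submodule.torsionBySet.mk_smul]
    ext
    rw [hρval]
    exact hc _ _ _
  obtain ⟨W₀, hW₀, hW₀card⟩ := semilinear_free ι hι ρ hρ
  let incl : Y →ₗ[k] V := Y.subtype.restrictScalars k
  refine ⟨W₀.map incl, ?_, ?_⟩
  · set X := ⨆ h, (W₀.map incl).map (σ h) with hX
    have hXinv : ∀ t v, v ∈ X → σ t v ∈ X := by
      intro t v hv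
      have : X.map (σ t) ≤ X := by
        rw [hX, Submodule.map_iSup]
        refine iSup_le fun h => ?_
        rw [← Submodule.map_comp, ← Module.End.mul_eq_comp, ← map_mul]
        exact le_iSup (fun h => (W₀.map incl).map (σ h)) (t * h)
      exact this (Submodule.mem_map_of_mem hv)
    have hYX : ∀ y : Y, (y : V) ∈ X := by
      intro y
      have hy : y ∈ ⨆ h, W₀.map (ρ h) := by rw [hW₀]; trivial
      have : (⨆ h : H₀, W₀.map (ρ h)).map incl ≤ X := by
        rw [Submodule.map_iSup]
        refine iSup_le fun h => ?_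
        refine le_trans ?_ (le_iSup _ (h : H))
        rintro _ ⟨_, ⟨w, hw, rfl⟩, rfl⟩
        exact ⟨incl w, ⟨w, hw, rfl⟩, rfl⟩
      exact this (Submodule.mem_map_of_mem hy)
    rw [eq_top_iff]
    intro v _
    have hv : v ∈ ⨆ i : S, Submodule.torsionBySet R V ((id (i : Ideal R) : Ideal R) : Set R) := by
      rw [hint.submodule_iSup_eq_top]
      trivial
    refine Submodule.iSup_induction _ (motive := fun x => x ∈ X) hv ?_ (zero_mem _)
      (fun _ _ => add_mem)
    rintro ⟨J, hJ⟩ x hx
    obtain ⟨t, rfl⟩ := (hS J).mp hJ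
    have h1 := htrans t⁻¹ (t • M) x hx
    have h2 : t⁻¹ • t • M = M := inv_smul_smul t M
    rw [h2] at h1
    have h3 := hXinv t _ (hYX ⟨_, h1⟩)
    have h4 : σ t (σ t⁻¹ x) = x := by
      rw [← Module.End.mul_apply, ← map_mul]
      simp
    rwa [h4] at h3
  · have hfin := finrank_of_internal (k := k) _ hint
    have h2 : ∀ i : S, finrank k Y ≤
        finrank k (Submodule.torsionBySet R V ((id (i : Ideal R) : Ideal R) : Set R)) := by
      rintro ⟨J, hJ⟩
      obtain ⟨t, rfl⟩ := (hS J).mp hJ
      haveI : FiniteDimensional k (Submodule.torsionBySet R V ((t • M : Ideal R) : Set R)) :=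
        FiniteDimensional.of_injective
          ((Submodule.torsionBySet R V ((t • M : Ideal R) : Set R)).subtype.restrictScalars k)
          Subtype.val_injective
      let f : Y →ₗ[k] (Submodule.torsionBySet R V ((t • M : Ideal R) : Set R)) :=
        { toFun := fun y => ⟨σ t y, htrans t M y y.2⟩
          map_add' := by intro a b; ext; simp
          map_smul' := by intro c a; ext; simp }
      have hf : Function.Injective f := by
        intro a b hab
        have h1 : σ t a = σ t b := congrArg Subtype.val hab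
        have h2 := congrArg (σ t⁻¹) h1
        simp only [← Module.End.mul_apply, ← map_mul, inv_mul_cancel, map_one,
          Module.End.one_apply] at h2
        exact Subtype.ext h2
      change finrank k Y ≤ finrank k (Submodule.torsionBySet R V ((t • M : Ideal R) : Set R))
      exact LinearMap.finrank_le_finrank_of_injective hf
    have h3 : S.card * finrank k Y ≤ finrank k V := by
      rw [hfin]
      calc S.card * finrank k Y = ∑ i : S, finrank k Y := by simp
        _ ≤ _ := Finset.sum_le_sum fun i _ => h2 i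
    have h4 : Nat.card H = S.card * Nat.card H₀ := by
      rw [Nat.card_eq_fintype_card, Nat.card_eq_fintype_card,
        ← MulAction.card_orbit_mul_card_stabilizer_eq_card_group H M, Set.toFinset_card]
    calc Nat.card H * finrank k (W₀.map incl)
        ≤ (S.card * Nat.card H₀) * finrank k W₀ := by
          rw [h4]
          exact Nat.mul_le_mul_left _ (Submodule.finrank_map_le _ _)
      _ = S.card * (Nat.card H₀ * finrank k W₀) := by ring
      _ ≤ S.card * finrank k Y := Nat.mul_le_mul_left _ hW₀card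
      _ ≤ _ := h3

end Cfsg.Agent.H26.FrobFree
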