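import Cfsg.Agent.Lib.H26.FrobFree2
import Mathlib
set_option autoImplicit false
set_option linter.style.haveILetI false
set_option linter.unusedVariables false
set_option linter.unusedSectionVars false
set_option linter.unusedSimpArgs false

open Module

namespace Cfsg.Agent.H26.FrobFree

theorem thmB {k A V H : Type*} [Field k] [CommGroup A] [Finite A]
    [AddCommGroup V] [Module k V] [FiniteDimensional k V] [Group H] [Finite H]
    (σ : H →* (V →ₗ[k] V)) (τ : A →* (V →ₗ[k] V)) (α : H →* MulAut A)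
    (hc : ∀ h a v, σ h (τ a v) = τ (α h a) (σ h v))
    (hbij : ∀ h, h ≠ 1 → ∀ b : A, ∃ a, b = α h a * a⁻¹)
    (hfix : ∀ v, (∀ a, τ a v = v) → v = 0)
    (G' : Set (V →ₗ[k] V)) (hG' : ∀ g ∈ G', ∀ a v, g (τ a v) = τ a (g v))
    (hsimple : ∀ U : Submodule k V, (∀ h, U ≤ U.comap (σ h)) → (∀ g ∈ G', U ≤ U.comap g) →
      U = ⊥ ∨ U = ⊤) :
    ∃ W : Submodule k V, (⨆ h, W.map (σ h)) = ⊤ ∧ Nat.card H * finrank k W ≤ finrank k V := by
  classical
  let R := MonoidAlgebra k A
  let ψ : R →ₐ[k] Module.End k V := Representation.asAlgebraHom τ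
  have hψ : ∀ a : A, ψ (MonoidAlgebra.of k A a) = τ a := by
    intro a
    exact Representation.asAlgebraHom_of τ a
  letI : Module R V := Module.compHom V ψ.toRingHom
  have hsm : ∀ (r : R) (v : V), r • v = ψ r v := fun _ _ => rfl
  haveI : IsScalarTower k R V := ⟨fun c r v => by
    rw [hsm, hsm, map_smul]
    rfl⟩
  haveI : FiniteDimensional k R := inferInstance
  let θ : H →* (R ≃ₐ[k] R) := (MonoidAlgebra.domCongrAut (R := k) (A := k) (M := A)).comp α
  have hθ : ∀ (h : H) (a : A), θ h (MonoidAlgebra.of k A a) = MonoidAlgebra.of k A (α h a) := by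
    intro h a
    show MonoidAlgebra.domCongr k k (α h) (MonoidAlgebra.of k A a) = _
    simp [MonoidAlgebra.of_apply]
  have hc' : ∀ h (r : R) (v : V), σ h (r • v) = θ h r • σ h v := by
    intro h r v
    induction r using MonoidAlgebra.induction_on with
    | of a =>
      rw [hsm, hsm, hθ, hψ, hψ]
      exact hc h a v
    | add x y hx hy =>
      rw [add_smul, map_add, hx, hy, map_add, add_smul]
    | smul c x hx =>
      rw [smul_assoc, map_smul, hx, map_smul, smul_assoc]
  have hG'' : ∀ g ∈ G', ∀ (r : R) (v : V), g (r • v) = r • g v := by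
    intro g hg r v
    induction r using MonoidAlgebra.induction_on with
    | of a =>
      rw [hsm, hsm, hψ]
      exact hG' g hg a v
    | add x y hx hy =>
      rw [add_smul, map_add, hx, hy, add_smul]
    | smul c x hx =>
      rw [smul_assoc, map_smul, hx, smul_assoc]
  refine thmT (R := R) σ θ hc' ?_ ?_
  · intro I hI hne
    have hinvσ : ∀ h, ((Submodule.torsionBySet R V (I : Set R)).restrictScalars k) ≤
        ((Submodule.torsionBySet R V (I : Set R)).restrictScalars k).comap (σ h) := by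
      intro h y hy
      show σ h y ∈ Submodule.torsionBySet R V (I : Set R)
      have hy' : y ∈ Submodule.torsionBySet R V (I : Set R) := hy
      rw [Submodule.mem_torsionBySet_iff] at hy' ⊢
      rintro ⟨r, hr⟩
      show r • σ h y = 0
      have h1 : r • σ h y = σ h (θ h⁻¹ r • y) := by
        rw [hc', ← AlgEquiv.mul_apply, ← map_mul]
        simp
      rw [h1, hy' ⟨_, hI h⁻¹ r hr⟩, map_zero]
    have hinvG : ∀ g ∈ G', ((Submodule.torsionBySet R V (I : Set R)).restrictScalars k) ≤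
        ((Submodule.torsionBySet R V (I : Set R)).restrictScalars k).comap g := by
      intro g hg y hy
      show g y ∈ Submodule.torsionBySet R V (I : Set R)
      have hy' : y ∈ Submodule.torsionBySet R V (I : Set R) := hy
      rw [Submodule.mem_torsionBySet_iff] at hy' ⊢
      rintro ⟨r, hr⟩
      show r • g y = 0
      rw [← hG'' g hg, hy' ⟨r, hr⟩, map_zero]
    rcases hsimple _ hinvσ hinvG with h0 | h1
    · exfalso
      apply hne
      rw [eq_bot_iff]
      intro y hy
      have : y ∈ ((Submodule.torsionBySet R V (I : Set R)).restrictScalars k) := hy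
      rw [h0] at this
      simpa using this
    · rw [eq_top_iff]
      intro y _
      have : y ∈ ((Submodule.torsionBySet R V (I : Set R)).restrictScalars k) := by
        rw [h1]; trivial
      exact this
  · intro M _ hne h hh hstab
    by_contra hcon
    push Not at hcon
    obtain ⟨y, hy, hy0⟩ := Submodule.exists_mem_ne_zero_of_ne_bot hne
    apply hy0
    apply hfix
    intro b
    obtain ⟨a, rfl⟩ := hbij h hh b
    rw [Submodule.mem_torsionBySet_iff] at hy
    have h1 : (θ h (MonoidAlgebra.of k A a) - MonoidAlgebra.of k A a) • y = 0 :=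
      hy ⟨_, hcon (MonoidAlgebra.of k A a)⟩
    rw [hθ, sub_smul, sub_eq_zero, hsm, hsm, hψ, hψ] at h1
    have h2 : α h a * a⁻¹ = a⁻¹ * α h a := mul_comm _ _
    rw [h2, map_mul, Module.End.mul_apply, h1, ← Module.End.mul_apply, ← map_mul]
    simp

theorem comm_surj {A : Type*} [CommGroup A] [Finite A] (e : MulAut A)
    (hfpf : ∀ a, e a = a → a = 1) (b : A) : ∃ a, b = e a * a⁻¹ := by
  let m : A →* A := (e.toMonoidHom) / (MonoidHom.id A)
  have hm : ∀ a, m a = e a * a⁻¹ := fun a => by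
    simp [m, div_eq_mul_inv]
  have hinj : Function.Injective m := by
    rw [injective_iff_map_eq_one]
    intro a ha
    rw [hm, mul_inv_eq_one] at ha
    exact hfpf a ha
  obtain ⟨a, rfl⟩ := (Finite.injective_iff_surjective.mp hinj) b
  exact ⟨a, hm a⟩

theorem simple_case {k Φ V H : Type*} [Field k] [Group Φ] [Fintype Φ] [Group H] [Finite H]
    [AddCommGroup V] [Module k V] [FiniteDimensional k V]
    (α : H →* MulAut Φ) (hfpf : ∀ h, h ≠ 1 → ∀ f, α h f = f → f = 1) (hnil : Group.IsNilpotent Φ)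
    (hΦ : (Fintype.card Φ : k) ≠ 0)
    (σ : H →* (V →ₗ[k] V)) (τ : Φ →* (V →ₗ[k] V))
    (hc : ∀ h f v, σ h (τ f v) = τ (α h f) (σ h v))
    (hsum : ∀ v, ∑ f, τ f v = 0)
    (hsimple : ∀ U : Submodule k V, (∀ h, U ≤ U.comap (σ h)) → (∀ f, U ≤ U.comap (τ f)) →
      U = ⊥ ∨ U = ⊤) :
    ∃ W : Submodule k V, (⨆ h, W.map (σ h)) = ⊤ ∧ Nat.card H * finrank k W ≤ finrank k V := by
  classical
  by_cases hV : Subsingleton V
  · exact ⟨⊥, Subsingleton.elim _ _, by simp⟩
  haveI : Nontrivial V := not_subsingleton_iff_nontrivial.mp hV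
  let σ' : H →* (V →ₗ[k] V)ˣ := σ.toHomUnits
  let τ' : Φ →* (V →ₗ[k] V)ˣ := τ.toHomUnits
  have hconj : ∀ h f, σ' h * τ' f * (σ' h)⁻¹ = τ' (α h f) := by
    intro h f
    rw [mul_inv_eq_iff_eq_mul]
    apply Units.ext
    apply LinearMap.ext
    intro v
    exact hc h f v
  let T : Subgroup (V →ₗ[k] V)ˣ := τ'.range
  let C : Subgroup (V →ₗ[k] V)ˣ := T ⊓ Subgroup.centralizer (T : Set (V →ₗ[k] V)ˣ)
  have hCmem : ∀ x, x ∈ C ↔ x ∈ T ∧ ∀ y ∈ T, y * x = x * y := by
    intro x
    simp only [C, Subgroup.mem_inf, Subgroup.mem_centralizer_iff, SetLike.mem_coe]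
  have hTconj : ∀ h, ∀ x ∈ T, σ' h * x * (σ' h)⁻¹ ∈ T := by
    rintro h _ ⟨f, rfl⟩
    exact ⟨α h f, (hconj h f).symm⟩
  have hCconj : ∀ h, ∀ x ∈ C, σ' h * x * (σ' h)⁻¹ ∈ C := by
    intro h x hx
    rw [hCmem] at hx ⊢
    refine ⟨hTconj h x hx.1, ?_⟩
    intro y hy
    have hy' : (σ' h)⁻¹ * y * σ' h ∈ T := by
      have := hTconj h⁻¹ y hy
      simpa [map_inv] using this
    have h1 := hx.2 _ hy'
    calc y * (σ' h * x * (σ' h)⁻¹) = σ' h * ((σ' h)⁻¹ * y * σ' h * x) * (σ' h)⁻¹ := by group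
      _ = σ' h * (x * ((σ' h)⁻¹ * y * σ' h)) * (σ' h)⁻¹ := by rw [h1]
      _ = _ := by group
  have hN : ∀ h, σ' h ∈ Subgroup.normalizer (C : Set (V →ₗ[k] V)ˣ) := by
    intro h
    rw [Subgroup.mem_normalizer_iff]
    intro x
    refine ⟨hCconj h x, ?_⟩
    intro hx
    have := hCconj h⁻¹ _ hx
    simpa [map_inv, mul_assoc] using this
  let σ'' : H →* Subgroup.normalizer (C : Set (V →ₗ[k] V)ˣ) := σ'.codRestrict _ hN
  let αA : H →* MulAut C := C.normalizerMonoidHom.comp σ''
  have hαA : ∀ h (a : C), ((αA h a : C) : (V →ₗ[k] V)ˣ) = σ' h * a * (σ' h)⁻¹ := fun _ _ => rfl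
  haveI hfT : Finite T := inferInstanceAs (Finite (τ'.range))
  haveI : Finite C := Finite.of_injective (Subgroup.inclusion (inf_le_left : C ≤ T))
    (Subgroup.inclusion_injective _)
  letI : CommGroup C := { (inferInstance : Group C) with
    mul_comm := by
      rintro ⟨a, ha⟩ ⟨b, hb⟩
      apply Subtype.ext
      exact (((hCmem a).mp ha).2 b ((hCmem b).mp hb).1).symm }
  let τA : C →* (V →ₗ[k] V) := (Units.coeHom _).comp C.subtype
  have hτA : ∀ (a : C) v, τA a v = ((a : (V →ₗ[k] V)ˣ) : V →ₗ[k] V) v := fun _ _ => rfl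
  have hfpfA : ∀ h, h ≠ 1 → ∀ a : C, αA h a = a → a = 1 := by
    rintro h hh ⟨a, ha⟩ hfix
    obtain ⟨f, rfl⟩ := ((hCmem a).mp ha).1
    have hfix' : τ' (α h f) = τ' f := by
      rw [← hconj]
      exact congrArg Subtype.val hfix
    have key : ∀ x y : Φ, x⁻¹ * α h x = y⁻¹ * α h y → x = y := by
      intro x y hxy
      have h1 : α h y = y * x⁻¹ * α h x := by
        rw [mul_assoc, hxy]
        group
      have h2 := hfpf h hh (y * x⁻¹) (by
        rw [map_mul, map_inv, h1]
        group)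
      exact (mul_inv_eq_one.mp h2).symm
    have hKst : ∀ x ∈ τ'.ker, x⁻¹ * α h x ∈ τ'.ker := by
      intro x hx
      rw [MonoidHom.mem_ker] at hx ⊢
      rw [map_mul, map_inv, ← hconj, hx]
      simp
    let Ψ : τ'.ker → τ'.ker := fun x => ⟨(x : Φ)⁻¹ * α h x, hKst x x.2⟩
    have hΨ : Function.Injective Ψ := by
      rintro ⟨x, hx⟩ ⟨y, hy⟩ hxy
      apply Subtype.ext
      exact key x y (congrArg Subtype.val hxy)
    have hz : f⁻¹ * α h f ∈ τ'.ker := by
      rw [MonoidHom.mem_ker, map_mul, map_inv, hfix']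
      simp
    obtain ⟨⟨x, hx⟩, hxz⟩ := (Finite.injective_iff_surjective.mp hΨ) ⟨_, hz⟩
    have hxf : x = f := key x f (congrArg Subtype.val hxz)
    subst hxf
    apply Subtype.ext
    exact hx
  have hcA : ∀ h (a : C) v, σ h (τA a v) = τA (αA h a) (σ h v) := by
    intro h a v
    rw [hτA, hτA, hαA]
    show _ = ((σ' h * a * (σ' h)⁻¹ : (V →ₗ[k] V)ˣ) : V →ₗ[k] V) (σ h v)
    have h1 : (σ' h * a * (σ' h)⁻¹) * σ' h = σ' h * a := by group
    have h2 := congrArg (fun u : (V →ₗ[k] V)ˣ => (u : V →ₗ[k] V) v) h1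
    exact h2.symm
  have hG' : ∀ g ∈ Set.range τ, ∀ (a : C) v, g (τA a v) = τA a (g v) := by
    rintro _ ⟨f, rfl⟩ ⟨a, ha⟩ v
    have h1 := ((hCmem a).mp ha).2 (τ' f) ⟨f, rfl⟩
    exact congrArg (fun u : (V →ₗ[k] V)ˣ => (u : V →ₗ[k] V) v) h1
  -- `T` is nontrivial, hence so is `C`
  have hTnt : Nontrivial T := by
    by_contra hcon
    rw [not_nontrivial_iff_subsingleton] at hcon
    obtain ⟨v, hv⟩ := exists_ne (0 : V)
    have hall : ∀ f, τ f = 1 := by
      intro f
      have h1 : (⟨τ' f, ⟨f, rfl⟩⟩ : T) = 1 := Subsingleton.elim _ _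
      exact congrArg (fun u : T => (((u : (V →ₗ[k] V)ˣ)) : V →ₗ[k] V)) h1
    have h2 := hsum v
    simp only [hall, Module.End.one_apply, Finset.sum_const, Finset.card_univ] at h2
    rw [← Nat.cast_smul_eq_nsmul k, smul_eq_zero] at h2
    exact h2.elim hΦ hv
  haveI hTnil : Group.IsNilpotent T :=
    Group.nilpotent_of_surjective τ'.rangeRestrict τ'.rangeRestrict_surjective
  have hcen : Subgroup.center T ≠ ⊥ := Group.IsNilpotent.center_ne_bot T
  obtain ⟨⟨z, hz⟩, hz1⟩ := Subgroup.ne_bot_iff_exists_ne_one.mp hcen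
  have hzC : (z : (V →ₗ[k] V)ˣ) ∈ C := by
    rw [hCmem]
    refine ⟨z.2, ?_⟩
    intro y hy
    have h1 := (Subgroup.mem_center_iff.mp hz) ⟨y, hy⟩
    exact congrArg Subtype.val h1
  have hfix : ∀ v, (∀ a : C, τA a v = v) → v = 0 := by
    intro v hv
    let U : Submodule k V :=
      { carrier := {v | ∀ a : C, τA a v = v}
        add_mem' := by
          intro x y hx hy a
          rw [map_add, hx a, hy a]
        zero_mem' := by
          intro a
          simp
        smul_mem' := by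
          intro c x hx a
          rw [map_smul, hx a] }
    have hUσ : ∀ h, U ≤ U.comap (σ h) := by
      intro h x hx a
      have h1 := hcA h (αA h⁻¹ a) x
      rw [hx] at h1
      have h2 : αA h (αA h⁻¹ a) = a := by
        rw [← MulAut.mul_apply, ← map_mul]
        simp
      rw [h2] at h1
      exact h1.symm
    have hUτ : ∀ f, U ≤ U.comap (τ f) := by
      intro f x hx a
      show τA a (τ f x) = τ f x
      rw [← hG' (τ f) ⟨f, rfl⟩, hx a]
    rcases hsimple U hUσ hUτ with h0 | h1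
    · have : v ∈ U := hv
      rw [h0] at this
      simpa using this
    · exfalso
      apply hz1
      apply Subtype.ext
      apply Subtype.ext
      apply Units.ext
      apply LinearMap.ext
      intro x
      have hx : x ∈ U := by rw [h1]; trivial
      exact hx ⟨z, hzC⟩
  refine thmB σ τA αA hcA (fun h hh b => comm_surj (αA h) (hfpfA h hh) b) hfix (Set.range τ) hG' ?_
  intro U hU1 hU2
  exact hsimple U hU1 (fun f => hU2 (τ f) ⟨f, rfl⟩)

end Cfsg.Agent.H26.FrobFree
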