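import Cfsg.Agent.Lib.H26.FrobFree3
import Mathlib
set_option autoImplicit false
set_option linter.style.haveILetI false
set_option linter.unusedVariables false
set_option linter.unusedSectionVars false
set_option linter.unusedSimpArgs false

open Module

namespace Cfsg.Agent.H26.FrobFree

universe v

theorem core {k Φ H : Type*} [Field k] [Group Φ] [Fintype Φ] [Group H] [Finite H]
    (α : H →* MulAut Φ) (hfpf : ∀ h, h ≠ 1 → ∀ f, α h f = f → f = 1) (hnil : Group.IsNilpotent Φ)
    (hΦ : (Fintype.card Φ : k) ≠ 0) (n : ℕ) :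
    ∀ (V : Type v) [AddCommGroup V] [Module k V] [FiniteDimensional k V]
      (σ : H →* (V →ₗ[k] V)) (τ : Φ →* (V →ₗ[k] V)),
      (∀ h f v, σ h (τ f v) = τ (α h f) (σ h v)) → (∀ v, ∑ f, τ f v = 0) → finrank k V = n →
      ∃ W : Submodule k V, (⨆ h, W.map (σ h)) = ⊤ ∧ Nat.card H * finrank k W ≤ finrank k V := by
  induction n using Nat.strong_induction_on with
  | _ n ih =>
    intro V _ _ _ σ τ hc hsum hn
    by_cases hs : ∀ U : Submodule k V, (∀ h, U ≤ U.comap (σ h)) → (∀ f, U ≤ U.comap (τ f)) →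
        U = ⊥ ∨ U = ⊤
    · exact simple_case α hfpf hnil hΦ σ τ hc hsum hs
    push Not at hs
    obtain ⟨U, hU1, hU2, hne1, hne2⟩ := hs
    let σU : H →* (U →ₗ[k] U) := Representation.subrepresentation σ U hU1
    let τU : Φ →* (U →ₗ[k] U) := Representation.subrepresentation τ U hU2
    let σQ : H →* ((V ⧸ U) →ₗ[k] (V ⧸ U)) := Representation.quotient σ U hU1
    let τQ : Φ →* ((V ⧸ U) →ₗ[k] (V ⧸ U)) := Representation.quotient τ U hU2
    have hσU : ∀ h (u : U), ((σU h u : U) : V) = σ h u := fun _ _ => rfl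
    have hτU : ∀ f (u : U), ((τU f u : U) : V) = τ f u := fun _ _ => rfl
    have hσQ : ∀ h v, σQ h (U.mkQ v) = U.mkQ (σ h v) := fun _ _ => rfl
    have hτQ : ∀ f v, τQ f (U.mkQ v) = U.mkQ (τ f v) := fun _ _ => rfl
    have hdim := Submodule.finrank_quotient_add_finrank U
    have hlt1 : finrank k U < n := hn ▸ Submodule.finrank_lt hne2
    have hpos : 0 < finrank k U := Submodule.one_le_finrank_iff.mpr hne1
    have hlt2 : finrank k (V ⧸ U) < n := by omega
    obtain ⟨W₁, hW₁, hW₁c⟩ := ih _ hlt1 U σU τU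
      (by
        intro h f u
        apply Subtype.ext
        exact hc h f u)
      (by
        intro u
        apply Subtype.ext
        rw [AddSubmonoidClass.coe_finset_sum]
        exact hsum u) rfl
    obtain ⟨W₂, hW₂, hW₂c⟩ := ih _ hlt2 (V ⧸ U) σQ τQ
      (by
        intro h f x
        obtain ⟨v, rfl⟩ := U.mkQ_surjective x
        rw [hτQ, hσQ, hσQ, hτQ, hc])
      (by
        intro x
        obtain ⟨v, rfl⟩ := U.mkQ_surjective x
        simp only [hτQ]
        rw [← map_sum, hsum, map_zero]) rfl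
    obtain ⟨s, hs⟩ := LinearMap.exists_rightInverse_of_surjective U.mkQ (Submodule.range_mkQ U)
    have hs' : ∀ x, U.mkQ (s x) = x := fun x => LinearMap.congr_fun hs x
    refine ⟨W₁.map U.subtype ⊔ W₂.map s, ?_, ?_⟩
    · set W := W₁.map U.subtype ⊔ W₂.map s with hW
      set X := ⨆ h, W.map (σ h) with hX
      have hWX : ∀ h, ∀ w ∈ W, σ h w ∈ X := by
        intro h w hw
        exact Submodule.mem_iSup_of_mem h (Submodule.mem_map_of_mem hw)
      have hUX : ∀ u : U, (u : V) ∈ X := by
        intro u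
        have hu : u ∈ ⨆ h, W₁.map (σU h) := by rw [hW₁]; trivial
        have hle : (⨆ h, W₁.map (σU h)).map U.subtype ≤ X := by
          rw [Submodule.map_iSup]
          refine iSup_le fun h => ?_
          rintro _ ⟨_, ⟨w, hw, rfl⟩, rfl⟩
          exact hWX h _ (Submodule.mem_sup_left (Submodule.mem_map_of_mem hw))
        exact hle (Submodule.mem_map_of_mem hu)
      have hQX : (⨆ h, W₂.map (σQ h)) ≤ X.map U.mkQ := by
        refine iSup_le fun h => ?_
        rintro _ ⟨w, hw, rfl⟩
        refine ⟨σ h (s w), hWX h _ (Submodule.mem_sup_right (Submodule.mem_map_of_mem hw)), ?_⟩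
        show U.mkQ (σ h (s w)) = σQ h w
        rw [← hσQ, hs']
      rw [eq_top_iff]
      intro v _
      have h1 : U.mkQ v ∈ X.map U.mkQ := hQX (by rw [hW₂]; trivial)
      obtain ⟨x, hx, hxv⟩ := h1
      have h2 : v - x ∈ U := by
        rw [← Submodule.Quotient.mk_eq_zero U, Submodule.Quotient.mk_sub, sub_eq_zero]
        exact hxv.symm
      have h3 := add_mem (hUX ⟨_, h2⟩) hx
      simpa using h3
    · have h1 : finrank k (W₁.map U.subtype ⊔ W₂.map s : Submodule k V) ≤
          finrank k W₁ + finrank k W₂ :=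
        (Submodule.finrank_add_le_finrank_add_finrank _ _).trans
          (Nat.add_le_add (Submodule.finrank_map_le _ _) (Submodule.finrank_map_le _ _))
      calc Nat.card H * finrank k (W₁.map U.subtype ⊔ W₂.map s : Submodule k V)
          ≤ Nat.card H * (finrank k W₁ + finrank k W₂) := Nat.mul_le_mul_left _ h1
        _ = Nat.card H * finrank k W₁ + Nat.card H * finrank k W₂ := by ring
        _ ≤ finrank k U + finrank k (V ⧸ U) := Nat.add_le_add hW₁c hW₂c
        _ = finrank k V := by omega

end Cfsg.Agent.H26.FrobFree
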