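import Cfsg.Agent.Lib.H26.FrobFree4
import Cfsg.Agent.Lib.H12.LinDL
import Cfsg.Agent.Lib.H06.FittingHall
import Cfsg.Agent.Lib.H03.PConstr
import Cfsg.Agent.Lib.H08.PCoreL
import Mathlib
set_option autoImplicit false
set_option linter.style.haveILetI false
set_option linter.unusedVariables false
set_option linter.unusedSectionVars false
set_option linter.unusedSimpArgs false

open Module

namespace Cfsg.Agent.H26.FrobFree

theorem internal_of_dim {k V H : Type*} [Field k] [AddCommGroup V] [Module k V]
    [FiniteDimensional k V] [Group H] [Fintype H] [DecidableEq H]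
    (σ : H →* (V →ₗ[k] V)) (W : Submodule k V) (h1 : (⨆ h, W.map (σ h)) = ⊤)
    (h2 : Nat.card H * finrank k W ≤ finrank k V) :
    DirectSum.IsInternal (fun h : H => W.map (σ h)) := by
  classical
  have hsurj : Function.Surjective (DirectSum.coeLinearMap (fun h : H => W.map (σ h))) := by
    rw [← LinearMap.range_eq_top, DirectSum.range_coeLinearMap, h1]
  have hd1 : finrank k (DirectSum H fun h => W.map (σ h)) = ∑ h : H, finrank k (W.map (σ h)) :=
    Module.finrank_directSum k _
  have hd2 : ∑ h : H, finrank k (W.map (σ h)) ≤ finrank k V := by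
    refine le_trans (Finset.sum_le_sum (g := fun _ => finrank k W)
      fun h _ => Submodule.finrank_map_le _ _) ?_
    simpa [Nat.card_eq_fintype_card] using h2
  have hd3 := LinearMap.finrank_le_finrank_of_surjective hsurj
  have heq : finrank k (DirectSum H fun h => W.map (σ h)) = finrank k V := by
    omega
  have hinj := (LinearMap.injective_iff_surjective_of_finrank_eq_finrank heq).mpr hsurj
  exact ⟨hinj, hsurj⟩

theorem exists_good_core {k V A : Type*} [Field k] [AddCommGroup V] [Module k V] [Group A]
    [Finite A] (ρ : A →* (V →ₗ[k] V)) (Fk : Subgroup A) [Fk.Normal]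
    (hnil : Group.IsNilpotent ↥Fk) (hCF : ∀ v : V, (∀ f ∈ Fk, ρ f v = v) → v = 0) :
    ∃ Φ₀ : Subgroup A, Φ₀.Normal ∧ Φ₀ ≤ Fk ∧ ((Nat.card Φ₀ : k) ≠ 0) ∧
      ∀ v, (∀ f ∈ Φ₀, ρ f v = v) → v = 0 := by
  classical
  by_cases h0 : (Nat.card Fk : k) = 0
  swap
  · exact ⟨Fk, inferInstance, le_rfl, h0, hCF⟩
  let q := ringChar k
  haveI : CharP k q := ringChar.charP k
  have hqdvd : q ∣ Nat.card Fk := (CharP.cast_eq_zero_iff k q _).mp h0
  have hq0 : q ≠ 0 := by
    intro hq
    rw [hq, zero_dvd_iff] at hqdvd
    exact Nat.card_pos.ne' hqdvd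
  have hqp : q.Prime := (CharP.char_is_prime_or_zero k q).resolve_right hq0
  haveI : Fact q.Prime := ⟨hqp⟩
  have hcoreN : (Cfsg.pPrimeCore q A).Normal := H03.pPrimeCore_normal'
  let Φ₀ : Subgroup A := Fk ⊓ Cfsg.pPrimeCore q A
  have hΦnorm : Φ₀.Normal := Subgroup.normal_inf_normal _ _
  have hcop : (Nat.card Φ₀).Coprime q :=
    Nat.Coprime.coprime_dvd_left (Subgroup.card_dvd_of_le inf_le_right)
      (H06.coprime_card_pPrimeCore q)
  refine ⟨Φ₀, hΦnorm, inf_le_left, ?_, ?_⟩
  · intro hc
    have h1 := (CharP.cast_eq_zero_iff k q _).mp hc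
    have h2 := Nat.Coprime.eq_one_of_dvd hcop.symm h1
    exact hqp.one_lt.ne' h2
  · intro v hv
    by_contra hv0
    let X : Submodule k V :=
      { carrier := {x | ∀ f ∈ Φ₀, ρ f x = x}
        add_mem' := by
          intro a b ha hb f hf
          rw [map_add, ha f hf, hb f hf]
        zero_mem' := by
          intro f hf
          simp
        smul_mem' := by
          intro c x hx f hf
          rw [map_smul, hx f hf] }
    have hXinv : ∀ (a : A), ∀ x ∈ X, ρ a x ∈ X := by
      intro a x hx f hf
      have h1 : a⁻¹ * f * a ∈ Φ₀ := by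
        have := hΦnorm.conj_mem f hf a⁻¹
        simpa using this
      have h2 : f * a = a * (a⁻¹ * f * a) := by group
      rw [← Module.End.mul_apply, ← map_mul, h2, map_mul, Module.End.mul_apply, hx _ h1]
    haveI : Nontrivial X := ⟨⟨⟨v, hv⟩, 0, fun h => hv0 (congrArg Subtype.val h)⟩⟩
    let Q0 : Sylow q Fk := default
    let ρQ : (Q0 : Subgroup Fk) →* Module.End k X :=
      { toFun := fun g =>
          { toFun := fun x => ⟨ρ ((g : Fk) : A) x, hXinv _ x x.2⟩
            map_add' := by intro a b; ext; simp
            map_smul' := by intro c a; ext; simp }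
        map_one' := by ext; simp
        map_mul' := by intro a b; ext; simp }
    obtain ⟨x, hx0, hx⟩ := H12.LinDL.exists_fixed_vector q Q0.2 ρQ
    let St : Subgroup Fk :=
      { carrier := {g | ρ (g : A) x = x}
        mul_mem' := by
          intro a b ha hb
          show ρ ((a : A) * (b : A)) x = x
          rw [map_mul, Module.End.mul_apply, hb, ha]
        one_mem' := by
          show ρ ((1 : Fk) : A) x = x
          simp
        inv_mem' := by
          intro a ha
          show ρ ((a : A)⁻¹) x = x
          have h1 : ρ (a : A) x = x := ha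
          conv_lhs => rw [← h1]
          rw [← Module.End.mul_apply, ← map_mul]
          simp }
    have hSt1 : (Q0 : Subgroup Fk) ≤ St := by
      intro g hg
      exact congrArg Subtype.val (hx ⟨g, hg⟩)
    have hSt2 : Φ₀.subgroupOf Fk ≤ St := by
      intro g hg
      exact x.2 _ hg
    have hi1 : St.index ∣ (Q0 : Subgroup Fk).index := Subgroup.index_dvd_of_le hSt1
    have hi2 : St.index ∣ (Φ₀.subgroupOf Fk).index := Subgroup.index_dvd_of_le hSt2
    have hnorm := (Group.isNilpotent_of_finite_tfae (G := Fk)).out 0 3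
    have hall := hnorm.mp hnil
    have hr : ∀ r : ℕ, r.Prime → r ≠ q → ¬ r ∣ (Φ₀.subgroupOf Fk).index := by
      intro r hrp hrq
      haveI : Fact r.Prime := ⟨hrp⟩
      let R : Sylow r Fk := default
      have hRn : (R : Subgroup Fk).Normal := hall r inferInstance R
      haveI : (R : Subgroup Fk).Characteristic := Sylow.characteristic_of_normal R hRn
      have hRA : ((R : Subgroup Fk).map Fk.subtype).Normal := inferInstance
      have hRc : (Nat.card ((R : Subgroup Fk).map Fk.subtype)).Coprime q := by
        have h1 : Nat.card ((R : Subgroup Fk).map Fk.subtype) = Nat.card (R : Subgroup Fk) :=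
          Nat.card_congr (Subgroup.equivMapOfInjective _ _ Fk.subtype_injective).toEquiv.symm
        rw [h1]
        obtain ⟨n, hn⟩ := IsPGroup.iff_card.mp R.2
        rw [hn]
        exact Nat.Coprime.pow_left _ ((Nat.coprime_primes hrp hqp).mpr hrq)
      have hle : (R : Subgroup Fk) ≤ Φ₀.subgroupOf Fk := by
        intro g hg
        show (g : A) ∈ Φ₀
        exact ⟨g.2, H08.le_pPrimeCore hRA hRc ⟨g, hg, rfl⟩⟩
      intro hdvd
      exact R.not_dvd_index (hdvd.trans (Subgroup.index_dvd_of_le hle))
    have hone : St.index = 1 := by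
      by_contra hne
      obtain ⟨r, hrp, hrd⟩ := Nat.exists_prime_and_dvd hne
      by_cases hrq : r = q
      · subst hrq
        exact Q0.not_dvd_index (hrd.trans hi1)
      · exact hr r hrp hrq (hrd.trans hi2)
    have htop : St = ⊤ := Subgroup.index_eq_one.mp hone
    apply hx0
    apply Subtype.ext
    apply hCF
    intro f hf
    have : (⟨f, hf⟩ : Fk) ∈ St := by rw [htop]; trivial
    exact this

end Cfsg.Agent.H26.FrobFree
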