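import Mathlib

/-! Recognition of `GL(2,3)` as `Q8 ⋊ S3` from generators and relations (helper26). -/

set_option autoImplicit false
set_option linter.unusedVariables false
set_option linter.style.haveILetI false

namespace Cfsg.Agent.H26.GL23

open QuaternionGroup DihedralGroup

abbrev QQ := QuaternionGroup 2
abbrev SS := DihedralGroup 3

/-- conjugation by the order three element, on `Q8` -/
def fA : QQ → QQ
  | a k => (xa 0 : QQ) ^ k.val
  | xa k => ((a 1 : QQ) * xa 0) * (xa 0 : QQ) ^ k.val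

/-- conjugation by the involution, on `Q8` -/
def fT : QQ → QQ
  | a k => (a 3 : QQ) ^ k.val
  | xa k => ((a 1 : QQ) * xa 0)⁻¹ * (a 3 : QQ) ^ k.val

/-- the action -/
def phi0 : SS → QQ → QQ
  | r k => fA^[k.val]
  | sr k => fT ∘ fA^[k.val]

theorem phi0_mul (s : SS) (x y : QQ) : phi0 s (x * y) = phi0 s x * phi0 s y := by
  revert s x y; decide +kernel

theorem phi0_comp (s u : SS) (x : QQ) : phi0 (s * u) x = phi0 s (phi0 u x) := by
  revert s u x; decide +kernel

theorem phi0_one (x : QQ) : phi0 1 x = x := by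
  revert x; decide +kernel

/-- the action as a hom -/
def phi : SS →* MulAut QQ :=
  MonoidHom.mk' (fun s =>
    { toFun := phi0 s
      invFun := phi0 s⁻¹
      left_inv := fun x => by rw [← phi0_comp, inv_mul_cancel, phi0_one]
      right_inv := fun x => by rw [← phi0_comp, mul_inv_cancel, phi0_one]
      map_mul' := phi0_mul s })
    (by
      intro s u
      ext x
      exact phi0_comp s u x)

theorem phi_apply (s : SS) (x : QQ) : phi s x = phi0 s x := rfl

/-- the model -/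
abbrev MM := QQ ⋊[phi] SS

theorem card_MM : Nat.card MM = 48 := by
  rw [SemidirectProduct.card, Nat.card_eq_fintype_card, QuaternionGroup.card, DihedralGroup.nat_card]

theorem nf_QQ (q : QQ) : ∃ m b : ℕ, q = (a 1 : QQ) ^ m * (xa 0 : QQ) ^ b := by
  revert q
  have h : ∀ q : QQ, ∃ m : Fin 4, ∃ b : Fin 2, q = (a 1 : QQ) ^ m.val * (xa 0 : QQ) ^ b.val := by
    decide +kernel
  intro q
  obtain ⟨m, b, h1⟩ := h q
  exact ⟨_, _, h1⟩

theorem nf_SS (s : SS) : ∃ m b : ℕ, s = (r 1 : SS) ^ m * (sr 0 : SS) ^ b := by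
  revert s
  have h : ∀ q : SS, ∃ m : Fin 3, ∃ b : Fin 2, q = (r 1 : SS) ^ m.val * (sr 0 : SS) ^ b.val := by
    decide +kernel
  intro q
  obtain ⟨m, b, h1⟩ := h q
  exact ⟨_, _, h1⟩

section hom

variable {X : Type*} [Group X]

/-- hom from `Q8` -/
def quatF (z w : X) : QQ → X
  | a k => z ^ k.val
  | xa k => w * z ^ k.val

/-- hom from `S3` -/
def dihF (u t : X) : SS → X
  | r k => u ^ k.val
  | sr k => t * u ^ k.val

theorem quatF_mul {z w : X} (hz : z ^ 4 = 1) (hw2 : w * w = z ^ 2) (hc : w * z * w⁻¹ = z⁻¹) (x y : QQ) :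
    quatF z w (x * y) = quatF z w x * quatF z w y := by
  have padd : ∀ i j : ZMod (2 * 2), z ^ (i + j).val = z ^ i.val * z ^ j.val := by
    intro i j
    rw [ZMod.val_add, ← pow_add]
    exact (pow_eq_pow_mod _ hz).symm
  have p0 : z ^ (0 : ZMod (2 * 2)).val = 1 := by rw [ZMod.val_zero, pow_zero]
  have pneg : ∀ i : ZMod (2 * 2), z ^ (-i).val = (z ^ i.val)⁻¹ := by
    intro i
    rw [eq_inv_iff_mul_eq_one, ← padd, neg_add_cancel, p0]
  have pn : z ^ ((2 : ℕ) : ZMod (2 * 2)).val = z ^ 2 := by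
    rw [ZMod.val_natCast, Nat.mod_eq_of_lt (by norm_num)]
  have conjp : ∀ k : ℕ, w * z ^ k * w⁻¹ = (z ^ k)⁻¹ := by
    intro k
    rw [← _root_.conj_pow, hc, inv_pow]
  have hwpz : ∀ i : ZMod (2 * 2), z ^ i.val * w = w * z ^ (-i).val := by
    intro i
    have h := conjp (-i).val
    rw [pneg, inv_inv] at h
    rw [← h, pneg]
    group
  rcases x with i | i <;> rcases y with j | j
  · change z ^ (i + j).val = z ^ i.val * z ^ j.val
    exact padd i j
  · change w * z ^ (j - i).val = z ^ i.val * (w * z ^ j.val)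
    rw [← mul_assoc, hwpz, mul_assoc, ← padd, sub_eq_add_neg, add_comm]
  · change w * z ^ (i + j).val = w * z ^ i.val * z ^ j.val
    rw [padd, mul_assoc]
  · change z ^ (((2 : ℕ) : ZMod (2 * 2)) + j - i).val = w * z ^ i.val * (w * z ^ j.val)
    rw [mul_assoc w, ← mul_assoc (z ^ i.val), hwpz, mul_assoc w, ← mul_assoc, hw2, ← padd,
      sub_eq_add_neg, add_assoc, padd, pn, add_comm j]

theorem dihF_mul {u t : X} (hu : u ^ 3 = 1) (ht : t * t = 1) (hc : t * u * t⁻¹ = u⁻¹) (x y : SS) :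
    dihF u t (x * y) = dihF u t x * dihF u t y := by
  have padd : ∀ i j : ZMod 3, u ^ (i + j).val = u ^ i.val * u ^ j.val := by
    intro i j
    rw [ZMod.val_add, ← pow_add]
    exact (pow_eq_pow_mod _ hu).symm
  have p0 : u ^ (0 : ZMod 3).val = 1 := by rw [ZMod.val_zero, pow_zero]
  have pneg : ∀ i : ZMod 3, u ^ (-i).val = (u ^ i.val)⁻¹ := by
    intro i
    rw [eq_inv_iff_mul_eq_one, ← padd, neg_add_cancel, p0]
  have conjp : ∀ k : ℕ, t * u ^ k * t⁻¹ = (u ^ k)⁻¹ := by
    intro k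
    rw [← _root_.conj_pow, hc, inv_pow]
  have hwpz : ∀ i : ZMod 3, u ^ i.val * t = t * u ^ (-i).val := by
    intro i
    have h := conjp (-i).val
    rw [pneg, inv_inv] at h
    rw [← h, pneg]
    group
  rcases x with i | i <;> rcases y with j | j
  · change u ^ (i + j).val = u ^ i.val * u ^ j.val
    exact padd i j
  · change t * u ^ (j - i).val = u ^ i.val * (t * u ^ j.val)
    rw [← mul_assoc, hwpz, mul_assoc, ← padd, sub_eq_add_neg, add_comm]
  · change t * u ^ (i + j).val = t * u ^ i.val * u ^ j.val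
    rw [padd, mul_assoc]
  · change u ^ (j - i).val = t * u ^ i.val * (t * u ^ j.val)
    rw [mul_assoc t, ← mul_assoc (u ^ i.val), hwpz, mul_assoc t, ← mul_assoc, ht, one_mul, ← padd,
      sub_eq_add_neg, add_comm]

/-- the relations of the triple -/
structure Rel (z u t : X) : Prop where
  z4 : z ^ 4 = 1
  jj : (u * z * u⁻¹) * (u * z * u⁻¹) = z ^ 2
  jz : (u * z * u⁻¹) * z * (u * z * u⁻¹)⁻¹ = z⁻¹
  ty : u⁻¹ * z * u = z * (u * z * u⁻¹)
  u3 : u ^ 3 = 1
  tt : t * t = 1
  tu : t * u * t⁻¹ = u⁻¹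
  tz : t * z * t⁻¹ = z⁻¹

variable {z u t : X}

/-- `delta` -/
def delta (h : Rel z u t) : QQ →* X :=
  MonoidHom.mk' (quatF z (u * z * u⁻¹)) (quatF_mul h.z4 h.jj h.jz)

/-- `eta` -/
def eta (h : Rel z u t) : SS →* X :=
  MonoidHom.mk' (dihF u t) (dihF_mul h.u3 h.tt h.tu)

theorem delta_apply (h : Rel z u t) (q : QQ) : delta h q = quatF z (u * z * u⁻¹) q := rfl
theorem eta_apply (h : Rel z u t) (q : SS) : eta h q = dihF u t q := rfl

theorem delta_a1 (h : Rel z u t) : delta h (a 1) = z := by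
  change z ^ (1 : ZMod (2 * 2)).val = z
  have : (1 : ZMod (2 * 2)).val = 1 := rfl
  rw [this, pow_one]

theorem delta_xa0 (h : Rel z u t) : delta h (xa 0) = u * z * u⁻¹ := by
  change (u * z * u⁻¹) * z ^ (0 : ZMod (2 * 2)).val = u * z * u⁻¹
  rw [ZMod.val_zero, pow_zero, mul_one]

theorem eta_r1 (h : Rel z u t) : eta h (r 1) = u := by
  change u ^ (1 : ZMod 3).val = u
  have : (1 : ZMod 3).val = 1 := rfl
  rw [this, pow_one]

theorem eta_sr0 (h : Rel z u t) : eta h (sr 0) = t := by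
  change t * u ^ (0 : ZMod 3).val = t
  rw [ZMod.val_zero, pow_zero, mul_one]

theorem homQ_ext {Y : Type*} [Group Y] {f g : QQ →* Y} (h1 : f (a 1) = g (a 1)) (h2 : f (xa 0) = g (xa 0)) :
    f = g := by
  ext q
  obtain ⟨m, b, rfl⟩ := nf_QQ q
  simp only [map_mul, map_pow, h1, h2]

theorem compat_gen (h : Rel z u t) (s : SS) (x : QQ) :
    delta h (phi s x) = eta h s * delta h x * (eta h s)⁻¹ := by
  have step : ∀ s₁ s₂ : SS, (∀ x, delta h (phi s₁ x) = eta h s₁ * delta h x * (eta h s₁)⁻¹) →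
      (∀ x, delta h (phi s₂ x) = eta h s₂ * delta h x * (eta h s₂)⁻¹) →
      ∀ x, delta h (phi (s₁ * s₂) x) = eta h (s₁ * s₂) * delta h x * (eta h (s₁ * s₂))⁻¹ := by
    intro s₁ s₂ h1 h2 x
    rw [map_mul, MulAut.mul_apply, h1, h2, map_mul]
    group
  have hgen1 : ∀ x, delta h (phi (r 1) x) = eta h (r 1) * delta h x * (eta h (r 1))⁻¹ := by
    have e : ((delta h).comp (phi (r 1)).toMonoidHom) =
        ((MulAut.conj (eta h (r 1))).toMonoidHom.comp (delta h)) := by
      apply homQ_ext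
      · change delta h (phi0 (r 1) (a 1)) = eta h (r 1) * delta h (a 1) * (eta h (r 1))⁻¹
        have e1 : phi0 (r 1) (a 1) = (xa 0 : QQ) := by decide +kernel
        rw [e1, delta_xa0, delta_a1, eta_r1]
      · change delta h (phi0 (r 1) (xa 0)) = eta h (r 1) * delta h (xa 0) * (eta h (r 1))⁻¹
        have e1 : phi0 (r 1) (xa 0) = (a 1 : QQ) * xa 0 := by decide +kernel
        rw [e1, map_mul, delta_xa0, delta_a1, eta_r1, ← h.ty]
        have h33 : u * u * u = 1 := by
          have h3 : u ^ 3 = 1 := h.u3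
          rwa [pow_succ, pow_two] at h3
        have h4 : u * u = u⁻¹ := eq_inv_of_mul_eq_one_left h33
        have h5 : u⁻¹ * u⁻¹ = u := by
          rw [← h4]
          calc u * u * (u * u) = (u * u * u) * u := by group
            _ = u := by rw [h33, one_mul]
        calc u⁻¹ * z * u = (u * u) * z * (u⁻¹ * u⁻¹) := by rw [h4, h5]
          _ = u * (u * z * u⁻¹) * u⁻¹ := by group
    intro x
    exact DFunLike.congr_fun e x
  have hgen2 : ∀ x, delta h (phi (sr 0) x) = eta h (sr 0) * delta h x * (eta h (sr 0))⁻¹ := by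
    have e : ((delta h).comp (phi (sr 0)).toMonoidHom) =
        ((MulAut.conj (eta h (sr 0))).toMonoidHom.comp (delta h)) := by
      apply homQ_ext
      · change delta h (phi0 (sr 0) (a 1)) = eta h (sr 0) * delta h (a 1) * (eta h (sr 0))⁻¹
        have e1 : phi0 (sr 0) (a 1) = ((a 1 : QQ))⁻¹ := by decide +kernel
        rw [e1, map_inv, delta_a1, eta_sr0, h.tz]
      · change delta h (phi0 (sr 0) (xa 0)) = eta h (sr 0) * delta h (xa 0) * (eta h (sr 0))⁻¹
        have e1 : phi0 (sr 0) (xa 0) = ((a 1 : QQ) * xa 0)⁻¹ := by decide +kernel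
        rw [e1, map_inv, map_mul, delta_xa0, delta_a1, eta_sr0, ← h.ty]
        have htu : t * u⁻¹ * t⁻¹ = u := by
          have : t * u⁻¹ * t⁻¹ = (t * u * t⁻¹)⁻¹ := by group
          rw [this, h.tu, inv_inv]
        have : t * (u * z * u⁻¹) * t⁻¹ = (t * u * t⁻¹) * (t * z * t⁻¹) * (t * u⁻¹ * t⁻¹) := by group
        rw [this, h.tu, h.tz, htu]
        group
    intro x
    exact DFunLike.congr_fun e x
  obtain ⟨m, b, rfl⟩ := nf_SS s
  have hp1 : ∀ m : ℕ, ∀ x, delta h (phi ((r 1 : SS) ^ m) x) = eta h ((r 1 : SS) ^ m) * delta h x * (eta h ((r 1 : SS) ^ m))⁻¹ := by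
    intro m
    induction m with
    | zero => intro x; simp
    | succ m ih => rw [pow_succ]; exact step _ _ ih hgen1
  have hp2 : ∀ m : ℕ, ∀ x, delta h (phi ((sr 0 : SS) ^ m) x) = eta h ((sr 0 : SS) ^ m) * delta h x * (eta h ((sr 0 : SS) ^ m))⁻¹ := by
    intro m
    induction m with
    | zero => intro x; simp
    | succ m ih => rw [pow_succ]; exact step _ _ ih hgen2
  exact step _ _ (hp1 m) (hp2 b) x

/-- the lift -/
def liftM (h : Rel z u t) : MM →* X :=
  SemidirectProduct.lift (delta h) (eta h) (by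
    intro s
    ext x
    exact compat_gen h s x)

theorem liftM_apply (h : Rel z u t) (m : MM) : liftM h m = delta h m.left * eta h m.right := by
  rfl

/-- Recognition of the model. -/
theorem rec48 [Finite X] (hX : Nat.card X = 48) (h : Rel z u t)
    (hinj : ∀ (q : QQ) (s : SS), quatF z (u * z * u⁻¹) q * dihF u t s = 1 → q = 1 ∧ s = 1) :
    Nonempty (MM ≃* X) := by
  have hi : Function.Injective (liftM h) := by
    rw [injective_iff_map_eq_one]
    intro m hm
    rw [liftM_apply] at hm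
    obtain ⟨h1, h2⟩ := hinj _ _ hm
    exact SemidirectProduct.ext h1 h2
  have hb : Function.Bijective (liftM h) := by
    refine (Nat.bijective_iff_injective_and_card _).2 ⟨hi, ?_⟩
    rw [card_MM, hX]
  exact ⟨MulEquiv.ofBijective _ hb⟩

end hom

section gl

/-- the matrices -/
abbrev G23 := GL (Fin 2) (ZMod 3)

def zG : G23 := ⟨!![0, -1; 1, 0], !![0, 1; -1, 0], by decide, by decide⟩
def uG : G23 := ⟨!![1, 1; 0, 1], !![1, -1; 0, 1], by decide, by decide⟩
def tG : G23 := ⟨!![1, 0; 0, -1], !![1, 0; 0, -1], by decide, by decide⟩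

theorem rel_G : Rel zG uG tG := by
  refine ⟨?_, ?_, ?_, ?_, ?_, ?_, ?_, ?_⟩ <;> decide +kernel

theorem inj_G (q : QQ) (s : SS) : quatF zG (uG * zG * uG⁻¹) q * dihF uG tG s = 1 → q = 1 ∧ s = 1 := by
  revert q s
  decide +kernel

theorem card_G : Nat.card G23 = 48 := by
  rw [Matrix.card_GL_field]
  simp [ZMod.card]

theorem model_G : Nonempty (MM ≃* G23) := rec48 card_G rel_G inj_G

end gl

/-- Any group with the triple is `GL(2,3)`. -/
theorem iso_GL {X : Type*} [Group X] [Finite X] {z u t : X} (hX : Nat.card X = 48) (h : Rel z u t)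
    (hinj : ∀ (q : QQ) (s : SS), quatF z (u * z * u⁻¹) q * dihF u t s = 1 → q = 1 ∧ s = 1) :
    Nonempty (X ≃* GL (Fin 2) (ZMod 3)) := by
  obtain ⟨e1⟩ := rec48 hX h hinj
  obtain ⟨e2⟩ := model_G
  exact ⟨e1.symm.trans e2⟩

end Cfsg.Agent.H26.GL23
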