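import Mathlib
import Cfsg.Agent.Lib.H14.FusionZJ
import Cfsg.Agent.Lib.H26.ZJBridge

/-! The Prelude's form of `p`-stability passes to the quotient by the `p'`-core. -/

set_option autoImplicit false
set_option linter.style.haveILetI false
set_option linter.unusedVariables false

namespace Cfsg.Agent.H26

open Cfsg Cfsg.Agent.H13 Cfsg.Agent.H14 ZJFam

open scoped commutatorElement

section QF

variable {H : Type*} [Group H] [Finite H] {p : ℕ} [Fact p.Prime]

/-- Stability data from `IsPStable`. -/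
theorem stable_data_of_IsPStable (hs : Cfsg.IsPStable p H) {B : Subgroup H} (hB : IsPGroup p B)
    (hBM : B ≤ pPrimePCore p H) (hBL : (pPrimeCore p H ⊔ B).Normal) :
    ∃ T : Subgroup H, T ≤ Subgroup.normalizer (B : Set H) ∧
      (∀ n ∈ Subgroup.normalizer (B : Set H), ∀ t ∈ T, n * t * n⁻¹ ∈ T) ∧
      Subgroup.centralizer (B : Set H) ≤ T ∧
      (∀ t ∈ T, ∃ k : ℕ, t ^ p ^ k ∈ Subgroup.centralizer (B : Set H)) ∧
      ∀ g ∈ Subgroup.normalizer (B : Set H), IsPGroup p (Subgroup.zpowers g) →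
        ⁅⁅B, Subgroup.zpowers g⁆, Subgroup.zpowers g⁆ = ⊥ → g ∈ T := by
  classical
  set N := Subgroup.normalizer (B : Set H) with hNdef
  set C := Subgroup.centralizer (B : Set H) with hCdef
  have hCN : C ≤ N := Subgroup.centralizer_le_normalizer _
  let π := QuotientGroup.mk' (C.subgroupOf N)
  set Oq := Cfsg.pCore p (↥N ⧸ C.subgroupOf N) with hOq
  have hOqn : Oq.Normal := Cfsg.Agent.H01.pCore_normal p
  have hOqp : IsPGroup p Oq := Cfsg.Agent.H01.pCore_isPGroup p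
  set T₀ : Subgroup N := Oq.comap π with hT₀
  have hT₀n : T₀.Normal := hOqn.comap π
  refine ⟨T₀.map N.subtype, Subgroup.map_subtype_le _, ?_, ?_, ?_, ?_⟩
  · intro n hn t ht
    obtain ⟨t₀, ht₀, rfl⟩ := ht
    exact ⟨⟨n, hn⟩ * t₀ * ⟨n, hn⟩⁻¹, hT₀n.conj_mem _ ht₀ _, rfl⟩
  · intro c hc
    refine ⟨⟨c, hCN hc⟩, ?_, rfl⟩
    have h1 : π ⟨c, hCN hc⟩ = 1 := (QuotientGroup.eq_one_iff _).mpr (Subgroup.mem_subgroupOf.mpr hc)
    change π ⟨c, hCN hc⟩ ∈ Oq
    rw [h1]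
    exact Oq.one_mem
  · rintro _ ⟨t₀, ht₀, rfl⟩
    obtain ⟨k, hk⟩ := hOqp ⟨π t₀, ht₀⟩
    refine ⟨k, ?_⟩
    have h1 : π t₀ ^ p ^ k = 1 := congrArg Subtype.val hk
    have h2 : π (t₀ ^ p ^ k) = 1 := by rw [map_pow, h1]
    have h3 := (QuotientGroup.eq_one_iff _).mp h2
    have h4 := Subgroup.mem_subgroupOf.mp h3
    simpa using h4
  · intro g hg hgp hg2
    have hA : ∀ a ∈ Subgroup.zpowers g, ∀ x ∈ B, a * x * a⁻¹ ∈ B := by
      intro a ha x hx
      have : a ∈ N := (Subgroup.zpowers_le.mpr hg) ha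
      exact (Subgroup.mem_normalizer_iff.mp this x).mp hx
    have h := hs.2.2 (Subgroup.zpowers g) B hgp hB hA hBM hBL hg2
    refine ⟨⟨g, hg⟩, ?_, rfl⟩
    apply h
    exact ⟨⟨g, hg⟩, Subgroup.mem_subgroupOf.mpr (Subgroup.mem_zpowers g), rfl⟩

/-- A `p`-element of a quotient is covered by a `p`-element in any subgroup of a given
preimage's powers. -/
lemma exists_ppart_lift {Q : Type*} [Group Q] (π : H →* Q) (g : H) (hgb : IsPGroup p (Subgroup.zpowers (π g))) :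
    ∃ g₁ ∈ Subgroup.zpowers g, IsPGroup p (Subgroup.zpowers g₁) ∧ π g₁ = π g := by
  classical
  have hp : p.Prime := Fact.out
  obtain ⟨a, m, hm, ho⟩ := Nat.exists_eq_pow_mul_and_not_dvd (orderOf_pos g).ne' p hp.ne_one
  have hcop : Nat.Coprime p m := (Nat.Prime.coprime_iff_not_dvd hp).mpr hm
  obtain ⟨b, hb⟩ := hgb ⟨π g, Subgroup.mem_zpowers _⟩
  have hb' : π g ^ p ^ b = 1 := congrArg Subtype.val hb
  have hcop2 : Nat.Coprime m (p ^ b) := (Nat.Coprime.pow_left b hcop).symm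
  obtain ⟨k, hk1, hk2⟩ := Nat.chineseRemainder hcop2 0 1
  have hmk : m ∣ k := (Nat.modEq_zero_iff_dvd).mp hk1
  refine ⟨g ^ k, Subgroup.npow_mem_zpowers _ _, ?_, ?_⟩
  · have h1 : (g ^ k) ^ p ^ a = 1 := by
      obtain ⟨c, rfl⟩ := hmk
      rw [← pow_mul, show m * c * p ^ a = (p ^ a * m) * c by ring, ← ho, pow_mul, pow_orderOf_eq_one,
        one_pow]
    rintro ⟨x, ⟨z, rfl⟩⟩
    refine ⟨a, Subtype.ext ?_⟩
    change ((g ^ k) ^ z) ^ p ^ a = 1
    rw [← zpow_natCast, zpow_comm, zpow_natCast, h1, one_zpow]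
  · rw [map_pow]
    conv_rhs => rw [← pow_one (π g)]
    rw [pow_eq_pow_iff_modEq]
    exact hk2.of_dvd (orderOf_dvd_of_pow_eq_one hb')

/-- The Prelude's form of `p`-stability gives the interface of the ZJ-theorem in the quotient by
the `p'`-core. -/
theorem normalStable_quot_of_IsPStable (hs : Cfsg.IsPStable p H) (Pb : Subgroup (H ⧸ pPrimeCore p H))
    (hPb : IsPGroup p Pb) : NormalStable p Pb := by
  classical
  set L := pPrimeCore p H with hLdef
  have hLn : L.Normal := Cfsg.Agent.H03.pPrimeCore_normal'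
  have hL : (Nat.card L).Coprime p := Cfsg.Agent.H06.coprime_card_pPrimeCore p
  haveI := hLn
  let π := QuotientGroup.mk' L
  have hπs : Function.Surjective π := QuotientGroup.mk'_surjective L
  have hπ1 : ∀ x : H, π x = 1 ↔ x ∈ L := fun x => QuotientGroup.eq_one_iff x
  intro Bb hBbp hBbn
  -- a `p`-subgroup covering `Bb`
  let R : Subgroup H := Bb.comap π
  have hRn : R.Normal := hBbn.comap π
  obtain ⟨B₀⟩ : Nonempty (Sylow p R) := inferInstance
  let B : Subgroup H := (B₀ : Subgroup R).map R.subtype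
  have hBp : IsPGroup p B := B₀.isPGroup'.map _
  have hBR : B ≤ R := Subgroup.map_subtype_le _
  have hBL : ∀ x ∈ B, x ∈ L → x = 1 := fun x h1 h2 => eq_one_of_mem_inf_coprime hBp hL h1 h2
  have hmap : B.map π = Bb := by
    obtain ⟨b, hb⟩ := IsPGroup.iff_card.mp hBbp
    apply Subgroup.eq_of_le_of_card_ge
    · rintro _ ⟨x, hx, rfl⟩
      exact hBR hx
    · have hcQ : Nat.card R = Nat.card L * Nat.card Bb :=
        QuotientGroup.card_preimage_mk L (Bb : Set (H ⧸ L))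
      have h1 : p ^ b ∣ Nat.card R := by
        rw [hcQ, hb]
        exact dvd_mul_left _ _
      have h2 := Sylow.pow_dvd_card_of_pow_dvd_card B₀ h1
      have h3 : Nat.card B = Nat.card (B₀ : Subgroup R) :=
        Subgroup.card_map_of_injective R.subtype_injective
      have h4 : Nat.card (B.map π) = Nat.card B := by
        apply Nat.card_congr
        exact (Cfsg.Agent.H03.equivMapOfInjOn π (Cfsg.Agent.H03.mk_injOn hL hBp)).toEquiv.symm
      rw [h4, h3, hb]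
      exact Nat.le_of_dvd Nat.card_pos h2
  have hRle : R ≤ B ⊔ L := by
    intro r hr
    have h1 : π r ∈ B.map π := by rw [hmap]; exact hr
    obtain ⟨b, hb, e⟩ := h1
    have h2 : b⁻¹ * r ∈ L := by
      rw [← hπ1, map_mul, map_inv, e, inv_mul_cancel]
    have e2 : r = b * (b⁻¹ * r) := by group
    rw [e2]
    exact Subgroup.mul_mem _ (Subgroup.mem_sup_left hb) (Subgroup.mem_sup_right h2)
  -- the normalizer covers the quotient
  have hcover : ∀ gb : H ⧸ L, ∃ g ∈ Subgroup.normalizer (B : Set H), π g = gb := by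
    intro gb
    obtain ⟨g, rfl⟩ := hπs gb
    have hle : B.map (MulAut.conj g).toMonoidHom ≤ B ⊔ L := by
      rintro _ ⟨b, hb, rfl⟩
      exact hRle (hRn.conj_mem b (hBR hb) g)
    obtain ⟨ℓ, hℓ, h1⟩ := exists_conj_of_le_sup hBp hLn hL (hBp.map (MulAut.conj g).toMonoidHom) hle
    refine ⟨ℓ * g, ?_, ?_⟩
    · apply mem_normalizer_of_map_conj_le
      rintro _ ⟨w, hw, rfl⟩
      have h3 : ℓ * (g * w * g⁻¹) * ℓ⁻¹ ∈ B := h1 ⟨g * w * g⁻¹, ⟨w, hw, rfl⟩, rfl⟩
      have e3 : (ℓ * g) * w * (ℓ * g)⁻¹ = ℓ * (g * w * g⁻¹) * ℓ⁻¹ := by group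
      change (ℓ * g) * w * (ℓ * g)⁻¹ ∈ B
      rw [e3]
      exact h3
    · rw [map_mul, (hπ1 ℓ).mpr hℓ, one_mul]
  have hBM : B ≤ pPrimePCore p H := by
    intro b hb
    change π b ∈ Cfsg.pCore p (H ⧸ L)
    exact Cfsg.Agent.H01.le_pCore hBbn hBbp (hBR hb)
  have hBLn : (L ⊔ B).Normal := by
    have e : L ⊔ B = R := by
      apply le_antisymm
      · refine sup_le ?_ hBR
        intro x hx
        change π x ∈ Bb
        rw [(hπ1 x).mpr hx]
        exact Bb.one_mem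
      · rw [sup_comm]
        exact hRle
    rw [e]
    exact hRn
  obtain ⟨T, hTN, hTinv, hCT, hTpow, hTq⟩ := stable_data_of_IsPStable hs hBp hBM hBLn
  refine ⟨T.map π, ?_, ?_, ?_, ?_⟩
  · refine ⟨fun x hx gb => ?_⟩
    obtain ⟨t, ht, rfl⟩ := hx
    obtain ⟨g, hg, rfl⟩ := hcover gb
    exact ⟨g * t * g⁻¹, hTinv g hg t ht, by simp only [map_mul, map_inv]⟩
  · intro cb hcb
    obtain ⟨c, hc, rfl⟩ := hcover cb
    refine ⟨c, hCT ?_, rfl⟩
    rw [Subgroup.mem_centralizer_iff]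
    intro b hb
    have h1 : c * b * c⁻¹ ∈ B := (Subgroup.mem_normalizer_iff.mp hc b).mp hb
    have h2 : (c * b * c⁻¹) * b⁻¹ ∈ B := B.mul_mem h1 (B.inv_mem hb)
    have h3 : (c * b * c⁻¹) * b⁻¹ ∈ L := by
      rw [← hπ1]
      have h4 : π b ∈ Bb := by
        rw [← hmap]
        exact ⟨b, hb, rfl⟩
      have h5 := (Subgroup.mem_centralizer_iff.mp hcb) (π b) h4
      simp only [map_mul, map_inv]
      rw [← h5]
      group
    have h6 := hBL _ h2 h3
    have h7 := mul_inv_eq_one.mp h6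
    have h8 : c * b = b * c := by
      calc c * b = (c * b * c⁻¹) * c := by group
        _ = b * c := by rw [h7]
    exact h8.symm
  · -- the relative index
    set Cb := Subgroup.centralizer (Bb : Set (H ⧸ L)) with hCb
    have hCbn : Cb.Normal := by
      refine ⟨fun c hc g => ?_⟩
      rw [hCb, Subgroup.mem_centralizer_iff] at hc ⊢
      intro b hb
      have h1 := hc (g⁻¹ * b * g) (by simpa using hBbn.conj_mem b hb g⁻¹)
      calc b * (g * c * g⁻¹) = g * ((g⁻¹ * b * g) * c) * g⁻¹ := by group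
        _ = g * (c * (g⁻¹ * b * g)) * g⁻¹ := by rw [h1]
        _ = _ := by group
    haveI : (Cb.subgroupOf (T.map π)).Normal := hCbn.subgroupOf _
    have hpg : IsPGroup p (↥(T.map π) ⧸ Cb.subgroupOf (T.map π)) := by
      intro x
      obtain ⟨⟨tb, ht⟩, rfl⟩ := QuotientGroup.mk'_surjective _ x
      obtain ⟨t, ht', rfl⟩ := ht
      obtain ⟨k, hk⟩ := hTpow t ht'
      refine ⟨k, ?_⟩
      change (QuotientGroup.mk _ ^ p ^ k : ↥(T.map π) ⧸ Cb.subgroupOf (T.map π)) = 1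
      rw [← QuotientGroup.mk_pow, QuotientGroup.eq_one_iff, Subgroup.mem_subgroupOf]
      change π t ^ p ^ k ∈ Cb
      rw [← map_pow, hCb, Subgroup.mem_centralizer_iff]
      intro b hb
      rw [← hmap] at hb
      obtain ⟨b', hb', rfl⟩ := hb
      rw [← map_mul, ← map_mul, (Subgroup.mem_centralizer_iff.mp hk) b' hb']
    obtain ⟨m, hm⟩ := IsPGroup.iff_card.mp hpg
    exact ⟨m, by rw [Subgroup.relIndex, Subgroup.index_eq_card, hm]⟩
  · intro gb hgb hq
    obtain ⟨g₀, hg₀, rfl⟩ := hcover gb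
    have hp1 : IsPGroup p (Subgroup.zpowers (π g₀)) :=
      hPb.to_le (Subgroup.zpowers_le.mpr hgb)
    obtain ⟨g, hgz, hgp, hgπ⟩ := exists_ppart_lift π g₀ hp1
    have hg : g ∈ Subgroup.normalizer (B : Set H) := (Subgroup.zpowers_le.mpr hg₀) hgz
    rw [← hgπ] at hq ⊢
    refine ⟨g, hTq g hg hgp ?_, rfl⟩
    have h1 : ⁅B, Subgroup.zpowers g⁆ ≤ B := by
      rw [Subgroup.commutator_le]
      intro b hb g₂ hg₂
      have hg₂N : g₂ ∈ Subgroup.normalizer (B : Set H) :=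
        (Subgroup.zpowers_le.mpr hg) hg₂
      have h2 : g₂ * b⁻¹ * g₂⁻¹ ∈ B := (Subgroup.mem_normalizer_iff.mp hg₂N _).mp (B.inv_mem hb)
      rw [commutatorElement_def]
      have e : b * g₂ * b⁻¹ * g₂⁻¹ = b * (g₂ * b⁻¹ * g₂⁻¹) := by group
      rw [e]
      exact B.mul_mem hb h2
    have h2 : ⁅⁅B, Subgroup.zpowers g⁆, Subgroup.zpowers g⁆ ≤ B := by
      rw [Subgroup.commutator_le]
      intro b hb g₂ hg₂
      have hb' : b ∈ B := h1 hb
      have hg₂N : g₂ ∈ Subgroup.normalizer (B : Set H) :=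
        (Subgroup.zpowers_le.mpr hg) hg₂
      have h2 : g₂ * b⁻¹ * g₂⁻¹ ∈ B := (Subgroup.mem_normalizer_iff.mp hg₂N _).mp (B.inv_mem hb')
      rw [commutatorElement_def]
      have e : b * g₂ * b⁻¹ * g₂⁻¹ = b * (g₂ * b⁻¹ * g₂⁻¹) := by group
      rw [e]
      exact B.mul_mem hb' h2
    have h3 : (⁅⁅B, Subgroup.zpowers g⁆, Subgroup.zpowers g⁆).map π = ⊥ := by
      rw [Subgroup.map_commutator, Subgroup.map_commutator, MonoidHom.map_zpowers, hmap]
      exact hq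
    rw [eq_bot_iff]
    intro x hx
    have h4 : π x = 1 := by
      have : π x ∈ (⁅⁅B, Subgroup.zpowers g⁆, Subgroup.zpowers g⁆).map π := ⟨x, hx, rfl⟩
      rw [h3] at this
      exact Subgroup.mem_bot.mp this
    exact Subgroup.mem_bot.mpr (hBL x (h2 hx) ((hπ1 x).mp h4))

/-- The quotient `ZL/L` of `Z(J(S))` is normal in a `p`-constrained, `p`-stable group. -/
theorem zz_sup_core_normal (hp2 : p ≠ 2) (n : ℕ) (S : Sylow p H) (hs : Cfsg.IsPStable p H)
    (hc : IsPConstrained p H) : ((elFam H n).zz (S : Subgroup H) ⊔ pPrimeCore p H).Normal := by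
  classical
  set L := pPrimeCore p H with hLdef
  have hLn : L.Normal := Cfsg.Agent.H03.pPrimeCore_normal'
  have hLc : (Nat.card L).Coprime p := Cfsg.Agent.H06.coprime_card_pPrimeCore p
  haveI := hLn
  let π := QuotientGroup.mk' L
  have hπs : Function.Surjective π := QuotientGroup.mk'_surjective L
  have hπ1 : ∀ x : H, π x = 1 ↔ x ∈ L := fun x => QuotientGroup.eq_one_iff x
  have hinj : ∀ x ∈ (S : Subgroup H), π x = 1 → x = 1 := by
    intro x hx h
    exact eq_one_of_mem_inf_coprime S.isPGroup' hLc hx ((hπ1 x).mp h)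
  let Pb : Sylow p (H ⧸ L) := S.mapSurjective hπs
  have hPb : (Pb : Subgroup (H ⧸ L)) = (S : Subgroup H).map π := Sylow.coe_mapSurjective hπs S
  have hcl' : IsStronglyClosed ((Pb : Subgroup (H ⧸ L))) (Pb : Subgroup (H ⧸ L)) :=
    ⟨le_rfl, fun _ _ _ h => h⟩
  have hcC : Subgroup.centralizer (Cfsg.pCore p (H ⧸ L) : Set (H ⧸ L)) ≤ Cfsg.pCore p (H ⧸ L) :=
    Cfsg.Agent.H03.isPConstrained_iff.mp hc
  have hnorm := zz_normal' (elFam (H ⧸ L) n) hp2 Pb hcl'
    (normalStable_quot_of_IsPStable hs _ Pb.isPGroup') hcC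
  rw [hPb, zz_map n π (S : Subgroup H) hinj] at hnorm
  have h1 := hnorm.comap π
  have h2 : (((elFam H n).zz (S : Subgroup H)).map π).comap π = (elFam H n).zz (S : Subgroup H) ⊔ L := by
    rw [Subgroup.comap_map_eq, QuotientGroup.ker_mk']
  rwa [h2] at h1

/-- The Frattini argument for a `p`-subgroup normal modulo a normal `p'`-subgroup. -/
theorem sup_normalizer_eq_top_of_normal {Z L : Subgroup H} (hZ : IsPGroup p Z) (hLn : L.Normal)
    (hL : (Nat.card L).Coprime p) (hM : (Z ⊔ L).Normal) :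
    L ⊔ Subgroup.normalizer (Z : Set H) = ⊤ := by
  rw [eq_top_iff]
  intro t _
  have hle1 : Z.map (MulAut.conj t).toMonoidHom ≤ Z ⊔ L := by
    rintro _ ⟨z, hz, rfl⟩
    exact hM.conj_mem z (Subgroup.mem_sup_left hz) t
  obtain ⟨ℓ₁, hℓ₁, h1⟩ := exists_conj_of_le_sup hZ hLn hL (hZ.map (MulAut.conj t).toMonoidHom) hle1
  have ht₁N : ℓ₁ * t ∈ Subgroup.normalizer (Z : Set H) := by
    apply mem_normalizer_of_map_conj_le
    rintro _ ⟨w, hw, rfl⟩
    have h3 : ℓ₁ * (t * w * t⁻¹) * ℓ₁⁻¹ ∈ Z := h1 ⟨t * w * t⁻¹, ⟨w, hw, rfl⟩, rfl⟩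
    have e3 : (ℓ₁ * t) * w * (ℓ₁ * t)⁻¹ = ℓ₁ * (t * w * t⁻¹) * ℓ₁⁻¹ := by group
    change (ℓ₁ * t) * w * (ℓ₁ * t)⁻¹ ∈ Z
    rw [e3]
    exact h3
  have e : t = ℓ₁⁻¹ * (ℓ₁ * t) := by group
  rw [e]
  exact Subgroup.mul_mem _ (Subgroup.mem_sup_left (L.inv_mem hℓ₁)) (Subgroup.mem_sup_right ht₁N)

end QF

end Cfsg.Agent.H26
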