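import Mathlib

/-!
# Scott's inequality and Ree's theorem for three permutations

For linear operators `X, Y, Z` with `X Y Z = 1`:
`dim V + dim ([V,X] + [V,Y]) ≤ dim (C(X) ∩ C(Y)) + rk (X-1) + rk (Y-1) + rk (Z-1)`.
-/

set_option autoImplicit false
set_option linter.unusedSectionVars false

namespace Cfsg.Agent.H26.Ree

open Module

section Scott

variable {k : Type*} [Field k] {V : Type*} [AddCommGroup V] [Module k V] [FiniteDimensional k V]

/-- Scott's inequality for three operators with product one. -/
theorem scott3 (X Y Z : V →ₗ[k] V) (hXYZ : ∀ v, X (Y (Z v)) = v) :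
    finrank k V + finrank k ↥(LinearMap.range (X - LinearMap.id) ⊔ LinearMap.range (Y - LinearMap.id)) ≤
      finrank k ↥(LinearMap.ker (X - LinearMap.id) ⊓ LinearMap.ker (Y - LinearMap.id)) +
        (finrank k ↥(LinearMap.range (X - LinearMap.id)) +
          (finrank k ↥(LinearMap.range (Y - LinearMap.id)) +
            finrank k ↥(LinearMap.range (Z - LinearMap.id)))) := by
  set A := X - LinearMap.id with hA
  set B := Y - LinearMap.id with hB
  set C := Z - LinearMap.id with hC
  let δ : V →ₗ[k] ↥(LinearMap.range A) × ↥(LinearMap.range B) × ↥(LinearMap.range C) :=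
    A.rangeRestrict.prod (B.rangeRestrict.prod C.rangeRestrict)
  let d : ↥(LinearMap.range A) × ↥(LinearMap.range B) × ↥(LinearMap.range C) →ₗ[k] V :=
    (LinearMap.range A).subtype.coprod
      ((X ∘ₗ (LinearMap.range B).subtype).coprod (X ∘ₗ Y ∘ₗ (LinearMap.range C).subtype))
  have hd : ∀ a b c, d (a, b, c) = (a : V) + X b + X (Y c) := by
    intro a b c
    simp [d, add_assoc]
  have hdδ : ∀ v, d (δ v) = 0 := by
    intro v
    have h1 : δ v = (A.rangeRestrict v, B.rangeRestrict v, C.rangeRestrict v) := rfl
    rw [h1, hd]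
    show A v + X (B v) + X (Y (C v)) = 0
    simp only [hA, hB, hC, LinearMap.sub_apply, LinearMap.id_apply, map_sub, hXYZ]
    abel
  have h1 : LinearMap.range δ ≤ LinearMap.ker d := by
    rintro _ ⟨v, rfl⟩
    exact hdδ v
  have h2 : LinearMap.range A ⊔ LinearMap.range B ≤ LinearMap.range d := by
    apply sup_le
    · intro a ha
      refine ⟨(⟨a, ha⟩, 0, 0), ?_⟩
      rw [hd]
      simp
    · rintro _ ⟨v, rfl⟩
      refine ⟨(⟨-(A (B v)), ⟨-(B v), by simp⟩⟩, ⟨B v, ⟨v, rfl⟩⟩, 0), ?_⟩
      rw [hd]
      simp [hA, hB]
  have h3 : LinearMap.ker δ ≤ LinearMap.ker A ⊓ LinearMap.ker B := by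
    intro v hv
    have hv' : δ v = 0 := hv
    have h4 : (A.rangeRestrict v, B.rangeRestrict v, C.rangeRestrict v) = 0 := hv'
    simp only [Prod.mk_eq_zero] at h4
    refine ⟨?_, ?_⟩
    · have := congrArg Subtype.val h4.1
      simpa using this
    · have := congrArg Subtype.val h4.2.1
      simpa using this
  have e1 := LinearMap.finrank_range_add_finrank_ker δ
  have e2 := LinearMap.finrank_range_add_finrank_ker d
  have e3 : finrank k (↥(LinearMap.range A) × ↥(LinearMap.range B) × ↥(LinearMap.range C)) =
      finrank k ↥(LinearMap.range A) + (finrank k ↥(LinearMap.range B) +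
        finrank k ↥(LinearMap.range C)) := by
    rw [finrank_prod, finrank_prod]
  have m1 := Submodule.finrank_mono h1
  have m2 := Submodule.finrank_mono h2
  have m3 := Submodule.finrank_mono h3
  omega

end Scott

section Perm

variable {α : Type*} [Fintype α] [DecidableEq α] (k : Type*) [Field k]

/-- The permutation action on functions. -/
def act (g : Equiv.Perm α) : (α → k) →ₗ[k] (α → k) := LinearMap.funLeft k k (g⁻¹ : Equiv.Perm α)

variable {k}

@[simp] theorem act_apply (g : Equiv.Perm α) (f : α → k) (a : α) : act k g f a = f (g⁻¹ a) := rfl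

theorem act_mul (g h : Equiv.Perm α) (f : α → k) : act k (g * h) f = act k g (act k h f) := by
  funext a
  simp [mul_inv_rev]

theorem act_one (f : α → k) : act k (1 : Equiv.Perm α) f = f := by
  funext a
  simp

/-- The invariants of `g` contain the functions on the orbits. -/
theorem card_orbits_le (g : Equiv.Perm α) [Fintype (Quotient (MulAction.orbitRel (Subgroup.zpowers g) α))] :
    finrank k ↥(LinearMap.range (act k g - LinearMap.id)) +
      Fintype.card (Quotient (MulAction.orbitRel (Subgroup.zpowers g) α)) ≤ Fintype.card α := by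
  classical
  let Q := Quotient (MulAction.orbitRel (Subgroup.zpowers g) α)
  let mk : α → Q := Quotient.mk _
  have hmk : Function.Surjective mk := Quotient.mk_surjective
  let Φ : (Q → k) →ₗ[k] (α → k) := LinearMap.funLeft k k mk
  have hΦ : Function.Injective Φ := LinearMap.funLeft_injective_of_surjective k k mk hmk
  have hker : LinearMap.range Φ ≤ LinearMap.ker (act k g - LinearMap.id) := by
    rintro _ ⟨f, rfl⟩
    rw [LinearMap.mem_ker]
    funext a
    have h1 : mk (g⁻¹ a) = mk a := by
      apply Quotient.sound
      show g⁻¹ a ∈ MulAction.orbit (Subgroup.zpowers g) a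
      refine ⟨⟨g⁻¹, Subgroup.inv_mem _ (Subgroup.mem_zpowers g)⟩, ?_⟩
      rfl
    simp only [LinearMap.sub_apply, act_apply, LinearMap.id_apply, Pi.sub_apply, Pi.zero_apply]
    show f (mk (g⁻¹ a)) - f (mk a) = 0
    rw [h1, sub_self]
  have e1 := LinearMap.finrank_range_add_finrank_ker (act k g - LinearMap.id)
  have e2 : finrank k ↥(LinearMap.range Φ) = Fintype.card Q := by
    rw [LinearMap.finrank_range_of_inj hΦ, finrank_fintype_fun_eq_card]
  have m := Submodule.finrank_mono hker
  have e3 : finrank k (α → k) = Fintype.card α := finrank_fintype_fun_eq_card k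
  have : Fintype.card (Quotient (MulAction.orbitRel (Subgroup.zpowers g) α)) = Fintype.card Q := rfl
  omega

/-- Burnside for a permutation of prime order. -/
theorem card_orbits_prime (g : Equiv.Perm α) (p : ℕ) [hp : Fact p.Prime] (hg : orderOf g = p)
    [Fintype (Quotient (MulAction.orbitRel (Subgroup.zpowers g) α))] :
    Fintype.card (Quotient (MulAction.orbitRel (Subgroup.zpowers g) α)) * p =
      Fintype.card α + (p - 1) * (Finset.univ.filter fun a => g a = a).card := by
  classical
  have hcard : Fintype.card (Subgroup.zpowers g) = p := by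
    rw [Fintype.card_zpowers, hg]
  have hB := MulAction.sum_card_fixedBy_eq_card_orbits_mul_card_group (Subgroup.zpowers g) α
  rw [hcard] at hB
  rw [← hB]
  have hfix : ∀ a : Subgroup.zpowers g, a ≠ 1 → Fintype.card (MulAction.fixedBy α a) =
      (Finset.univ.filter fun a => g a = a).card := by
    intro a ha
    rw [Fintype.card_subtype]
    congr 1
    ext b
    simp only [Finset.mem_filter, Finset.mem_univ, true_and, MulAction.mem_fixedBy]
    constructor
    · intro hb
      have hgm : (⟨g, Subgroup.mem_zpowers g⟩ : Subgroup.zpowers g) ∈ Subgroup.zpowers a :=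
        mem_zpowers_of_prime_card (p := p) (by rw [Nat.card_eq_fintype_card]; exact hcard) ha
      obtain ⟨n, hn⟩ := Subgroup.mem_zpowers_iff.1 hgm
      have h1 : (a ^ n) • b = b := (MulAction.mem_fixedBy_zpowers_iff_mem_fixedBy.2 hb) n
      rw [hn] at h1
      exact h1
    · intro hb
      obtain ⟨a', ha'⟩ := a
      obtain ⟨m, rfl⟩ := Subgroup.mem_zpowers_iff.1 ha'
      have h1 : g • b = b := hb
      exact (MulAction.mem_fixedBy_zpowers_iff_mem_fixedBy.2 h1) m
  have h1 : Fintype.card (MulAction.fixedBy α (1 : Subgroup.zpowers g)) = Fintype.card α := by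
    rw [Fintype.card_subtype]
    simp
  rw [← Finset.add_sum_erase _ _ (Finset.mem_univ (1 : Subgroup.zpowers g)), h1]
  congr 1
  rw [Finset.sum_congr rfl (fun a ha => hfix a (Finset.ne_of_mem_erase ha)), Finset.sum_const,
    Finset.card_erase_of_mem (Finset.mem_univ _), Finset.card_univ, hcard, smul_eq_mul]

end Perm

end Cfsg.Agent.H26.Ree
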