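import Mathlib
import Cfsg.Prelude.Def_SporadicB
import Cfsg.Agent.Lib.H14.ChermakDelgado

/-! Consequence of the `Z*`-theorem: an involution class whose products are `p`-elements, given a
normal subgroup of odd order containing the commutators. -/

set_option autoImplicit false
set_option linter.unusedSimpArgs false
set_option linter.unusedVariables false
set_option linter.unusedSectionVars false

namespace Cfsg.Agent.H26.ZStarP

open scoped Pointwise

section Abs

variable {N : Type*} [Group N] [Finite N]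

/-- An invariant Sylow subgroup for an involutory automorphism of a group of odd order. -/
theorem exists_invariant_sylow (q : ℕ) [Fact q.Prime] (hodd : Odd (Nat.card N)) (σ : MulAut N)
    (hσ : σ * σ = 1) : ∃ Q : Sylow q N, ∀ u ∈ (Q : Subgroup N), σ u ∈ (Q : Subgroup N) := by
  classical
  have h2 : Fact (Nat.Prime 2) := ⟨Nat.prime_two⟩
  let A : Subgroup (MulAut N) := Subgroup.zpowers σ
  have hA : IsPGroup 2 ↥A := by
    refine IsPGroup.of_card (n := (Nat.card ↥A).factorization 2) ?_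
    have h1 : Nat.card ↥A ∣ 2 ^ 1 := by
      rw [Nat.card_zpowers, pow_one]
      exact orderOf_dvd_of_pow_eq_one (by rw [pow_two]; exact hσ)
    obtain ⟨j, _, hj⟩ := (Nat.dvd_prime_pow Nat.prime_two).1 h1
    rw [hj, Nat.prime_two.factorization_pow]
    simp
  have hcard : ¬ 2 ∣ Nat.card (Sylow q N) := by
    intro h
    have h3 : Nat.card (Sylow q N) ∣ Nat.card N := by
      have hd := Sylow.card_dvd_index (default : Sylow q N)
      exact hd.trans (Subgroup.index_dvd_card _)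
    have h4 := h.trans h3
    exact (Nat.not_even_iff_odd.2 hodd) (even_iff_two_dvd.2 h4)
  obtain ⟨Q, hQ⟩ := hA.nonempty_fixed_point_of_prime_not_dvd_card (Sylow q N) hcard
  refine ⟨Q, fun u hu => ?_⟩
  have h5 : (⟨σ, Subgroup.mem_zpowers σ⟩ : ↥A) • Q = Q := hQ _
  have h6 : σ • (Q : Subgroup N) = (Q : Subgroup N) := by
    have := congrArg (fun S : Sylow q N => (S : Subgroup N)) h5
    exact this
  rw [← h6]
  exact Subgroup.smul_mem_pointwise_smul u σ _ hu

/-- The abstract lemma. -/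
theorem exists_p_subgroup {p : ℕ} [Fact p.Prime] (hodd : Odd (Nat.card N)) (σ : MulAut N)
    (hσ : σ * σ = 1) (hI : ∀ u : N, ∃ k : ℕ, (u * (σ u)⁻¹) ^ p ^ k = 1) :
    ∃ P : Subgroup N, IsPGroup p P ∧ ∀ u, u * (σ u)⁻¹ ∈ P := by
  classical
  have hpp : p.Prime := Fact.out
  let C : Subgroup N :=
    { carrier := {u | σ u = u}
      mul_mem' := fun {a b} ha hb => by
        show σ (a * b) = a * b
        rw [map_mul, ha, hb]
      one_mem' := map_one σ
      inv_mem' := fun {a} ha => by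
        show σ a⁻¹ = a⁻¹
        rw [map_inv, ha] }
  have hmemC : ∀ u, u ∈ C ↔ σ u = u := fun _ => Iff.rfl
  -- the index of `C` is a power of `p`
  have hidx : C.index = p ^ C.index.primeFactorsList.length := by
    apply Nat.eq_prime_pow_of_unique_prime_dvd (Subgroup.index_ne_zero_of_finite)
    intro q hq hdvd
    by_contra hne
    have hfq : Fact q.Prime := ⟨hq⟩
    obtain ⟨Q, hQ⟩ := exists_invariant_sylow q hodd σ hσ
    have hle : (Q : Subgroup N) ≤ C := by
      intro u hu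
      have hv : u * (σ u)⁻¹ ∈ (Q : Subgroup N) := Subgroup.mul_mem _ hu (Subgroup.inv_mem _ (hQ u hu))
      obtain ⟨k, hk⟩ := hI u
      obtain ⟨j, hj⟩ := Q.isPGroup' ⟨_, hv⟩
      have hj' : (u * (σ u)⁻¹) ^ q ^ j = 1 := congrArg Subtype.val hj
      have h1 : orderOf (u * (σ u)⁻¹) ∣ p ^ k := orderOf_dvd_of_pow_eq_one hk
      have h3 : orderOf (u * (σ u)⁻¹) ∣ q ^ j := orderOf_dvd_of_pow_eq_one hj'
      have h4 : Nat.Coprime (p ^ k) (q ^ j) :=
        Nat.Coprime.pow _ _ ((Nat.coprime_primes hpp hq).2 (Ne.symm hne))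
      have h5 := orderOf_eq_one_iff.1 (Nat.eq_one_of_dvd_coprimes h4 h1 h3)
      have h6 : u = σ u := mul_inv_eq_one.1 h5
      exact h6.symm
    have h7 : C.index ∣ (Q : Subgroup N).index := Subgroup.index_dvd_of_le hle
    exact Q.not_dvd_index (hdvd.trans h7)
  set e := C.index.primeFactorsList.length with he
  obtain ⟨P, hP⟩ := exists_invariant_sylow p hodd σ hσ
  -- the product set is everything
  have hprodset : ((P : Subgroup N) : Set N) * (C : Set N) = Set.univ := by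
    have hcard := Cfsg.Agent.H14.card_mul_set_mul_card_inf (P : Subgroup N) C
    obtain ⟨b, hb⟩ := IsPGroup.iff_card.1 (IsPGroup.to_le P.isPGroup' (inf_le_left : (P : Subgroup N) ⊓ C ≤ P))
    have h1 : Nat.card ↥((P : Subgroup N) ⊓ C) ∣ Nat.card C :=
      Subgroup.card_dvd_of_le inf_le_right
    have h2 : p ^ (e + b) ∣ Nat.card N := by
      rw [← Subgroup.index_mul_card C, hidx, pow_add]
      rw [hb] at h1
      exact Nat.mul_dvd_mul (dvd_refl _) h1
    have h3 : p ^ (e + b) ∣ Nat.card (P : Subgroup N) := P.pow_dvd_card_of_pow_dvd_card h2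
    have h4 : p ^ e * Nat.card ↥((P : Subgroup N) ⊓ C) ≤ Nat.card (P : Subgroup N) := by
      rw [hb, ← pow_add]
      exact Nat.le_of_dvd Nat.card_pos h3
    have h5 : Nat.card N ≤ Nat.card ↥(((P : Subgroup N) : Set N) * (C : Set N)) := by
      have h6 : Nat.card N * Nat.card ↥((P : Subgroup N) ⊓ C)
          ≤ Nat.card ↥(((P : Subgroup N) : Set N) * (C : Set N)) * Nat.card ↥((P : Subgroup N) ⊓ C) := by
        rw [hcard, ← Subgroup.index_mul_card C, hidx]
        calc p ^ e * Nat.card C * Nat.card ↥((P : Subgroup N) ⊓ C)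
            = (p ^ e * Nat.card ↥((P : Subgroup N) ⊓ C)) * Nat.card C := by ring
          _ ≤ Nat.card (P : Subgroup N) * Nat.card C := Nat.mul_le_mul_right _ h4
      exact Nat.le_of_mul_le_mul_right h6 Nat.card_pos
    apply Set.eq_of_subset_of_ncard_le (Set.subset_univ _)
    rw [Set.ncard_univ]
    rwa [Nat.card_coe_set_eq] at h5
  refine ⟨P, P.isPGroup', fun u => ?_⟩
  have hu : u ∈ ((P : Subgroup N) : Set N) * (C : Set N) := by rw [hprodset]; trivial
  obtain ⟨v, hv, c, hc, rfl⟩ := Set.mem_mul.1 hu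
  have hc' : σ c = c := hc
  have e1 : v * c * (σ (v * c))⁻¹ = v * (σ v)⁻¹ := by
    rw [map_mul, hc']
    group
  rw [e1]
  exact Subgroup.mul_mem _ hv (Subgroup.inv_mem _ (hP v hv))

end Abs

variable {G : Type*} [Group G] [Finite G]

/-- The consequence of the `Z*`-theorem. -/
theorem main {p : ℕ} (hp : p.Prime) (hp2 : p ≠ 2) (d : G) (hd : orderOf d = 2)
    (hprod : ∀ a ∈ conjugatesOf d, ∀ b ∈ conjugatesOf d, ∃ k : ℕ, orderOf (a * b) = p ^ k)
    (N : Subgroup G) (hN : N.Normal) (hodd : Odd (Nat.card N))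
    (hcomm : ∀ g : G, d * g * d⁻¹ * g⁻¹ ∈ N) :
    ∀ a ∈ conjugatesOf d, ∀ b ∈ conjugatesOf d, a * b ∈ Cfsg.pCore p G := by
  classical
  have hfp : Fact p.Prime := ⟨hp⟩
  have hdd : d * d = 1 := by rw [← pow_two, ← hd]; exact pow_orderOf_eq_one d
  have hdi : d⁻¹ = d := inv_eq_of_mul_eq_one_right hdd
  have hself : d ∈ conjugatesOf d := IsConj.refl d
  have hconjmem : ∀ u : G, u * d * u⁻¹ ∈ conjugatesOf d := fun u => isConj_iff.2 ⟨u, rfl⟩
  let σ : MulAut ↥N := MulAut.conjNormal d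
  have hσval : ∀ u : ↥N, ((σ u : ↥N) : G) = d * u * d⁻¹ := fun u => rfl
  have hσ : σ * σ = 1 := by
    show MulAut.conjNormal d * MulAut.conjNormal d = 1
    rw [← map_mul, hdd, map_one]
  have hI : ∀ u : ↥N, ∃ k : ℕ, (u * (σ u)⁻¹) ^ p ^ k = 1 := by
    intro u
    obtain ⟨k, hk⟩ := hprod _ (hconjmem u.1) d hself
    refine ⟨k, ?_⟩
    apply Subtype.ext
    have e1 : ((u * (σ u)⁻¹ : ↥N) : G) = u.1 * d * u.1⁻¹ * d := by
      show u.1 * (d * u.1 * d⁻¹)⁻¹ = _
      rw [mul_inv_rev, mul_inv_rev, inv_inv, hdi]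
      group
    rw [Subgroup.coe_pow, e1]
    show (u.1 * d * u.1⁻¹ * d) ^ p ^ k = 1
    rw [← hk]
    exact pow_orderOf_eq_one _
  obtain ⟨P, hP, hPI⟩ := exists_p_subgroup hodd σ hσ hI
  let P' : Subgroup G := P.map N.subtype
  have hP' : IsPGroup p P' := by
    intro x
    obtain ⟨x, y, hy, rfl⟩ := x
    obtain ⟨k, hk⟩ := hP ⟨y, hy⟩
    refine ⟨k, ?_⟩
    apply Subtype.ext
    have : y ^ p ^ k = 1 := congrArg Subtype.val hk
    show (N.subtype y) ^ p ^ k = 1
    rw [← map_pow, this, map_one]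
  -- every member times `d` lies in `P'`
  have hmem : ∀ a ∈ conjugatesOf d, a * d ∈ P' := by
    intro a ha
    obtain ⟨g, rfl⟩ := isConj_iff.1 (show IsConj d a from ha)
    have hi : g * d * g⁻¹ * d ∈ N := by
      have h1 := N.inv_mem (hcomm g)
      have e1 : (d * g * d⁻¹ * g⁻¹)⁻¹ = g * d * g⁻¹ * d := by
        rw [mul_inv_rev, mul_inv_rev, mul_inv_rev, inv_inv, inv_inv, hdi]
        group
      rwa [e1] at h1
    set i : ↥N := ⟨g * d * g⁻¹ * d, hi⟩ with hidef
    obtain ⟨m, hm⟩ := hodd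
    have hipow : i ^ (2 * m + 1) = 1 := by
      rw [← hm]
      exact pow_card_eq_one'
    let r : ↥N := i ^ (m + 1)
    have hrr : r * r = i := by
      show i ^ (m + 1) * i ^ (m + 1) = i
      rw [← pow_add, show m + 1 + (m + 1) = (2 * m + 1) + 1 by ring, pow_succ, hipow, one_mul]
    have hinv : σ i = i⁻¹ := by
      apply Subtype.ext
      show d * (g * d * g⁻¹ * d) * d⁻¹ = (g * d * g⁻¹ * d)⁻¹
      rw [hdi, mul_inv_rev, mul_inv_rev, mul_inv_rev, inv_inv, hdi]
      calc d * (g * d * g⁻¹ * d) * d = d * (g * d * g⁻¹) * (d * d) := by group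
        _ = d * (g * d * g⁻¹) := by rw [hdd, mul_one]
        _ = d * (g * (d * g⁻¹)) := by group
    have hrinv : σ r = r⁻¹ := by
      show σ (i ^ (m + 1)) = (i ^ (m + 1))⁻¹
      rw [map_pow, hinv, inv_pow]
    have h3 := hPI r
    rw [hrinv, inv_inv, hrr] at h3
    exact ⟨i, h3, rfl⟩
  have hprodmem : ∀ a ∈ conjugatesOf d, ∀ b ∈ conjugatesOf d, a * b ∈ P' := by
    intro a ha b hb
    obtain ⟨g, rfl⟩ := isConj_iff.1 (show IsConj d b from hb)
    have h1 := hmem a ha
    have h2 := P'.inv_mem (hmem _ hb)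
    have h3 := P'.mul_mem h1 h2
    have e1 : a * d * (g * d * g⁻¹ * d)⁻¹ = a * (g * d * g⁻¹) := by
      rw [mul_inv_rev, mul_inv_rev, mul_inv_rev, inv_inv, hdi]
      calc a * d * (d * (g * (d * g⁻¹))) = a * (d * d) * (g * (d * g⁻¹)) := by group
        _ = a * (g * d * g⁻¹) := by rw [hdd, mul_one]; group
    rwa [e1] at h3
  let W : Subgroup G := Subgroup.closure {x | ∃ a ∈ conjugatesOf d, ∃ b ∈ conjugatesOf d, x = a * b}
  have hWle : W ≤ P' := by
    rw [Subgroup.closure_le]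
    rintro _ ⟨a, ha, b, hb, rfl⟩
    exact hprodmem a ha b hb
  have hWn : W.Normal := by
    refine ⟨fun x hx g => ?_⟩
    induction hx using Subgroup.closure_induction with
    | mem x hx =>
      obtain ⟨a, ha, b, hb, rfl⟩ := hx
      refine Subgroup.subset_closure ⟨g * a * g⁻¹, ?_, g * b * g⁻¹, ?_, by group⟩
      · exact (show IsConj d a from ha).trans (isConj_iff.2 ⟨g, rfl⟩)
      · exact (show IsConj d b from hb).trans (isConj_iff.2 ⟨g, rfl⟩)
    | one => simp [W.one_mem]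
    | mul x y _ _ hx hy =>
      have e1 : g * (x * y) * g⁻¹ = (g * x * g⁻¹) * (g * y * g⁻¹) := by group
      rw [e1]
      exact W.mul_mem hx hy
    | inv x _ hx =>
      have e1 : g * x⁻¹ * g⁻¹ = (g * x * g⁻¹)⁻¹ := by group
      rw [e1]
      exact W.inv_mem hx
  have hWp : IsPGroup p W := IsPGroup.to_le hP' hWle
  intro a ha b hb
  have hW : a * b ∈ W := Subgroup.subset_closure ⟨a, ha, b, hb, rfl⟩
  have hle : W ≤ Cfsg.pCore p G := le_sSup ⟨hWn, hWp⟩
  exact hle hW

/-- The hypothesis of the `Z*`-theorem holds. -/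
theorem exists_sylow {p : ℕ} (hp : p.Prime) (hp2 : p ≠ 2) (d : G) (hd : orderOf d = 2)
    (hprod : ∀ a ∈ conjugatesOf d, ∀ b ∈ conjugatesOf d, ∃ k : ℕ, orderOf (a * b) = p ^ k) :
    ∃ S : Sylow 2 G, d ∈ (S : Subgroup G) ∧
      ∀ g : G, g * d * g⁻¹ ∈ (S : Subgroup G) → g * d * g⁻¹ = d := by
  have hf2 : Fact (Nat.Prime 2) := ⟨Nat.prime_two⟩
  have hdd : d * d = 1 := by rw [← pow_two, ← hd]; exact pow_orderOf_eq_one d
  have hZ : IsPGroup 2 ↥(Subgroup.zpowers d) := by
    refine IsPGroup.of_card (n := 1) ?_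
    rw [Nat.card_zpowers, hd, pow_one]
  obtain ⟨S, hS⟩ := hZ.exists_le_sylow
  refine ⟨S, hS (Subgroup.mem_zpowers d), fun g hg => ?_⟩
  have hdS : d ∈ (S : Subgroup G) := hS (Subgroup.mem_zpowers d)
  have hm : g * d * g⁻¹ * d ∈ (S : Subgroup G) := Subgroup.mul_mem _ hg hdS
  obtain ⟨j, hj⟩ := S.isPGroup' ⟨_, hm⟩
  have hj' : (g * d * g⁻¹ * d) ^ 2 ^ j = 1 := congrArg Subtype.val hj
  obtain ⟨k, hk⟩ := hprod _ (isConj_iff.2 ⟨g, rfl⟩) d (IsConj.refl d)
  have h1 : orderOf (g * d * g⁻¹ * d) ∣ 2 ^ j := orderOf_dvd_of_pow_eq_one hj'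
  have h3 : orderOf (g * d * g⁻¹ * d) ∣ p ^ k := by rw [hk]
  have h4 : Nat.Coprime (2 ^ j) (p ^ k) :=
    Nat.Coprime.pow _ _ ((Nat.coprime_primes Nat.prime_two hp).2 (Ne.symm hp2))
  have h5 := orderOf_eq_one_iff.1 (Nat.eq_one_of_dvd_coprimes h4 h1 h3)
  have h6 : g * d * g⁻¹ = d⁻¹ := eq_inv_of_mul_eq_one_left h5
  rw [h6]
  exact inv_eq_of_mul_eq_one_right hdd

end Cfsg.Agent.H26.ZStarP
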